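import Mathlib

/-!
# Singer cycles

The group of multiplications by the non-zero elements of an extension `K` of a finite field `F`,
inside the units of `Module.End F K`.
-/

set_option autoImplicit false

namespace CfsgLib.Singer

variable (F K : Type*) [Field F] [Field K] [Algebra F K]

/-- The Singer subgroup. -/
def cycle : Subgroup (Module.End F K)ˣ :=
  (Units.map ((Algebra.lmul F K : K →ₐ[F] Module.End F K) : K →* Module.End F K)).range

variable {F K}

theorem lmul_inj {x y : K} (h : Algebra.lmul F K x = Algebra.lmul F K y) : x = y := by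
  have := LinearMap.congr_fun h 1
  simpa using this

theorem mem_cycle {u : (Module.End F K)ˣ} :
    u ∈ cycle F K ↔ ∃ x : K, x ≠ 0 ∧ (u : Module.End F K) = Algebra.lmul F K x := by
  constructor
  · rintro ⟨v, rfl⟩
    exact ⟨v, v.ne_zero, rfl⟩
  · rintro ⟨x, hx, h⟩
    exact ⟨Units.mk0 x hx, Units.ext h.symm⟩

theorem card_cycle [Fintype K] : Nat.card (cycle F K) = Fintype.card K - 1 := by
  have hinj : Function.Injective
      (Units.map ((Algebra.lmul F K : K →ₐ[F] Module.End F K) : K →* Module.End F K)) :=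
    fun u v h => Units.ext (lmul_inj (congrArg Units.val h))
  show Nat.card (Units.map _).range = _
  rw [← Nat.card_congr (MonoidHom.ofInjective hinj).toEquiv, Nat.card_units,
    Nat.card_eq_fintype_card]

/-- Multiplication followed by conjugation. -/
def conjAlg (g : (Module.End F K)ˣ) : K →ₐ[F] Module.End F K where
  toFun x := (g : Module.End F K) * Algebra.lmul F K x * (g⁻¹ : (Module.End F K)ˣ)
  map_one' := by rw [map_one, mul_one, Units.mul_inv]
  map_mul' x y := by
    rw [map_mul]
    simp only [mul_assoc, Units.inv_mul_cancel_left]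
  map_zero' := by rw [map_zero, mul_zero, zero_mul]
  map_add' x y := by rw [map_add, mul_add, add_mul]
  commutes' r := by
    show (g : Module.End F K) * Algebra.lmul F K (algebraMap F K r) * _ = _
    rw [(Algebra.lmul F K).commutes, ← Algebra.commutes, mul_assoc, Units.mul_inv, mul_one]

theorem conjAlg_apply (g : (Module.End F K)ˣ) (x : K) :
    conjAlg g x = (g : Module.End F K) * Algebra.lmul F K x * (g⁻¹ : (Module.End F K)ˣ) := rfl

theorem mem_conj_cycle {g u : (Module.End F K)ˣ} :
    u ∈ (cycle F K).map (MulAut.conj g).toMonoidHom ↔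
      ∃ x : K, x ≠ 0 ∧ (u : Module.End F K) = conjAlg g x := by
  constructor
  · rintro ⟨v, hv, rfl⟩
    obtain ⟨x, hx, e⟩ := mem_cycle.1 hv
    exact ⟨x, hx, by simp [conjAlg_apply, ← e]⟩
  · rintro ⟨x, hx, e⟩
    refine ⟨g⁻¹ * u * g, mem_cycle.2 ⟨x, hx, ?_⟩, by simp [mul_assoc]⟩
    rw [Units.val_mul, Units.val_mul, e, conjAlg_apply]
    simp [mul_assoc]

/-- The subfield of elements whose conjugate is again a multiplication. -/
def stableField [Finite K] (g : (Module.End F K)ˣ) : IntermediateField F K :=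
  ((Algebra.lmul F K).range.comap (conjAlg g)).toIntermediateField fun x hx => by
    haveI := Fintype.ofFinite K
    rcases eq_or_ne x 0 with rfl | h
    · simpa using hx
    have hc : x⁻¹ = x ^ (Fintype.card K - 1 - 1) := by
      refine inv_eq_of_mul_eq_one_right ?_
      have : 2 ≤ Fintype.card K := Fintype.one_lt_card
      rw [← pow_succ', show Fintype.card K - 1 - 1 + 1 = Fintype.card K - 1 by omega]
      exact FiniteField.pow_card_sub_one_eq_one x h
    rw [hc]
    exact pow_mem hx _

theorem mem_stableField [Finite K] {g : (Module.End F K)ˣ} {x : K} :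
    x ∈ stableField g ↔ ∃ y : K, conjAlg g x = Algebra.lmul F K y := by
  show conjAlg g x ∈ (Algebra.lmul F K).range ↔ _
  rw [AlgHom.mem_range]
  exact ⟨fun ⟨y, h⟩ => ⟨y, h.symm⟩, fun ⟨y, h⟩ => ⟨y, h.symm⟩⟩

theorem card_inf [Fintype K] (g : (Module.End F K)ˣ) :
    Nat.card ↥((cycle F K).map (MulAut.conj g).toMonoidHom ⊓ cycle F K) =
      Nat.card (stableField g) - 1 := by
  classical
  rw [← Nat.card_units (stableField g)]
  have hx : ∀ v : (stableField g)ˣ, (((v : stableField g) : K)) ≠ 0 := fun v e =>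
    v.ne_zero (Subtype.ext e)
  let f : (stableField g)ˣ → ↥((cycle F K).map (MulAut.conj g).toMonoidHom ⊓ cycle F K) := fun v =>
    ⟨MulAut.conj g (Units.map ((Algebra.lmul F K : K →ₐ[F] Module.End F K) : K →* Module.End F K)
      (Units.mk0 _ (hx v))), by
      refine ⟨mem_conj_cycle.2 ⟨_, hx v, by simp [conjAlg_apply]⟩, mem_cycle.2 ?_⟩
      obtain ⟨y, hy⟩ := mem_stableField.1 (v : stableField g).2
      refine ⟨y, fun e => hx v ?_, ?_⟩
      · rw [e, map_zero, conjAlg_apply] at hy
        exact lmul_inj (F := F) ((show Algebra.lmul F K ((v : stableField g) : K) = 0 by simpa using hy).trans (map_zero _).symm)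
      · simpa [conjAlg_apply] using hy⟩
  refine (Nat.card_congr (Equiv.ofBijective f ⟨fun v w h => ?_, fun u => ?_⟩)).symm
  · have h1 := (MulAut.conj g).injective (congrArg Subtype.val h)
    exact Units.ext (Subtype.ext (lmul_inj (congrArg Units.val h1)))
  · obtain ⟨x, hx0, e⟩ := mem_conj_cycle.1 u.2.1
    obtain ⟨y, -, e'⟩ := mem_cycle.1 u.2.2
    have hmem : x ∈ stableField g := mem_stableField.2 ⟨y, by rw [← e, e']⟩
    refine ⟨Units.mk0 ⟨x, hmem⟩ (fun h => hx0 (congrArg Subtype.val h)),
      Subtype.ext (Units.ext ?_)⟩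
    rw [e]
    simp [f, conjAlg_apply]

/-- Multiplication by a unit after a field automorphism. -/
def semilinear (σ : K ≃ₐ[F] K) (v : Kˣ) : (Module.End F K)ˣ where
  val := Algebra.lmul F K (v : K) * σ.toLinearMap
  inv := σ.symm.toLinearMap * Algebra.lmul F K ((v⁻¹ : Kˣ) : K)
  val_inv := by ext x; simp
  inv_val := by ext x; simp

theorem semilinear_apply (σ : K ≃ₐ[F] K) (v : Kˣ) (x : K) :
    (semilinear σ v : Module.End F K) x = v * σ x := rfl

theorem conjAlg_semilinear (σ : K ≃ₐ[F] K) (v : Kˣ) (x : K) :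
    conjAlg (semilinear σ v) x = Algebra.lmul F K (σ x) := by
  rw [conjAlg_apply, Units.mul_inv_eq_iff_eq_mul]
  ext y
  simp [semilinear_apply, mul_comm, mul_left_comm]

theorem semilinear_mem [Fintype K] (σ : K ≃ₐ[F] K) (v : Kˣ) :
    semilinear σ v ∈ Subgroup.normalizer (cycle F K : Set (Module.End F K)ˣ) := by
  rw [Subgroup.mem_normalizer_iff]
  intro u
  constructor
  · intro hu
    obtain ⟨x, hx, e⟩ := mem_cycle.1 hu
    refine mem_cycle.2 ⟨σ x, by simpa using hx, ?_⟩
    rw [← conjAlg_semilinear σ v x, conjAlg_apply, ← e]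
    simp
  · intro hu
    obtain ⟨x, hx, e⟩ := mem_cycle.1 hu
    refine mem_cycle.2 ⟨σ.symm x, by simpa using hx, ?_⟩
    have h := conjAlg_semilinear σ v (σ.symm x)
    rw [σ.apply_symm_apply, ← e, conjAlg_apply] at h
    simp only [Units.val_mul] at h
    exact (Units.mul_right_inj _).1 ((Units.mul_left_inj _).1 h).symm

theorem exists_semilinear [Fintype K] {h : (Module.End F K)ˣ}
    (hh : h ∈ Subgroup.normalizer (cycle F K : Set (Module.End F K)ˣ)) :
    ∃ (σ : K ≃ₐ[F] K) (v : Kˣ), semilinear σ v = h := by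
  have hall : ∀ x, conjAlg h x ∈ (Algebra.lmul F K).range := by
    intro x
    rcases eq_or_ne x 0 with rfl | hx
    · rw [map_zero]; exact zero_mem _
    · have := (Subgroup.mem_normalizer_iff.1 hh
        (Units.map ((Algebra.lmul F K : K →ₐ[F] Module.End F K) : K →* Module.End F K)
          (Units.mk0 x hx))).1 ⟨_, rfl⟩
      obtain ⟨y, -, e⟩ := mem_cycle.1 this
      exact ⟨y, by simpa [conjAlg_apply] using e.symm⟩
  have hinj : Function.Injective (Algebra.lmul F K) := fun _ _ => lmul_inj
  let τ : K →ₐ[F] K := (AlgEquiv.ofInjective (Algebra.lmul F K) hinj).symm.toAlgHom.comp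
    ((conjAlg h).codRestrict _ hall)
  let σ : K ≃ₐ[F] K := AlgEquiv.ofBijective τ
    (Finite.injective_iff_bijective.1 (τ : K →+* K).injective)
  have hσ : ∀ x, Algebra.lmul F K (σ x) = conjAlg h x := fun x =>
    congrArg Subtype.val ((AlgEquiv.ofInjective (Algebra.lmul F K) hinj).apply_symm_apply
      ((conjAlg h).codRestrict _ hall x))
  have key : ∀ x, (h : Module.End F K) x = σ x * (h : Module.End F K) 1 := by
    intro x
    have e : Algebra.lmul F K (σ x) * (h : Module.End F K) =
        (h : Module.End F K) * Algebra.lmul F K x := by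
      rw [hσ, conjAlg_apply, mul_assoc, Units.inv_mul, mul_one]
    have := LinearMap.congr_fun e 1
    simpa using this.symm
  have h1 : (h : Module.End F K) 1 ≠ 0 := by
    intro e
    have e' := LinearMap.congr_fun (Units.inv_mul h) (1 : K)
    rw [Module.End.mul_apply, e, map_zero, Module.End.one_apply] at e'
    exact zero_ne_one e'
  refine ⟨σ, Units.mk0 _ h1, Units.ext (LinearMap.ext fun x => ?_)⟩
  rw [semilinear_apply, key x, mul_comm]
  rfl

theorem card_normalizer [Fintype F] [Fintype K] :
    Nat.card (Subgroup.normalizer (cycle F K : Set (Module.End F K)ˣ)) =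
      Module.finrank F K * (Fintype.card K - 1) := by
  haveI : FiniteDimensional F K := Module.Finite.of_finite
  let f : (K ≃ₐ[F] K) × Kˣ → Subgroup.normalizer (cycle F K : Set (Module.End F K)ˣ) :=
    fun p => ⟨semilinear p.1 p.2, semilinear_mem p.1 p.2⟩
  have hf : Function.Bijective f := by
    refine ⟨fun ⟨σ, v⟩ ⟨τ, w⟩ e => ?_, fun ⟨h, hh⟩ => ?_⟩
    · have e' : ∀ x : K, (v : K) * σ x = w * τ x := fun x =>
        LinearMap.congr_fun (congrArg Units.val (congrArg Subtype.val e)) x
      have hv : v = w := Units.ext (by simpa using e' 1)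
      subst hv
      exact Prod.ext (AlgEquiv.ext fun x => mul_left_cancel₀ v.ne_zero (e' x)) rfl
    · obtain ⟨σ, v, e⟩ := exists_semilinear hh
      exact ⟨(σ, v), Subtype.ext e⟩
  rw [← Nat.card_congr (Equiv.ofBijective f hf), Nat.card_prod, IsGalois.card_aut_eq_finrank,
    Nat.card_units, Nat.card_eq_fintype_card]

end CfsgLib.Singer
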