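import Cfsg.Agent.Lib.Singer.PrimeGraphSymp
import Cfsg.Agent.Lib.Classes.OmegaOdd
import Cfsg.Agent.Lib.ClassicalForms.Ortho.Values

/-!
Eigenvalues, fixed lines and the spinor value of `-refl` in odd-dimensional orthogonal groups over finite
fields of odd order.
-/

set_option autoImplicit false
set_option linter.unusedSectionVars false

namespace CfsgLib.Singer.Orth

open Polynomial Matrix CfsgLib.OrthGen CfsgLib.Classes CfsgLib.Singer.Symp

variable {F : Type*} [Field F] {ι : Type} [Fintype ι] [DecidableEq ι] {Q : QuadraticForm F (ι → F)}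

theorem orderOf_matHom (g : Cfsg.isometryGroup F (⇑Q)) : orderOf (matHom Q g) = orderOf g :=
  orderOf_injective (matHom Q) (fun _ _ h => Subtype.ext (Units.ext h)) g

/-- The Gram matrix of the polar form. -/
noncomputable abbrev gram (Q : QuadraticForm F (ι → F)) : Matrix ι ι F :=
  LinearMap.toMatrix₂' F (QuadraticMap.polarBilin Q)

theorem det_gram_ne_zero (hQ : (QuadraticMap.polarBilin Q).Nondegenerate) : (gram Q).det ≠ 0 :=
  Matrix.nondegenerate_iff_det_ne_zero.1 hQ.toMatrix₂'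

theorem gram_act (g : Cfsg.isometryGroup F (⇑Q)) : (matHom Q g)ᵀ * gram Q * matHom Q g = gram Q := by
  have h : (QuadraticMap.polarBilin Q).compl₁₂ (Matrix.toLin' (matHom Q g)) (Matrix.toLin' (matHom Q g)) =
      QuadraticMap.polarBilin Q := LinearMap.ext fun x => LinearMap.ext fun y => pf_act g x y
  have h2 := congrArg (LinearMap.toMatrix₂' F) h
  rwa [LinearMap.toMatrix₂'_compl₁₂, LinearMap.toMatrix'_toLin'] at h2

theorem detHom_sq (hQ : (QuadraticMap.polarBilin Q).Nondegenerate) (g : Cfsg.isometryGroup F (⇑Q)) :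
    detHom Q g * detHom Q g = 1 := by
  have h := congrArg Matrix.det (gram_act g)
  rw [det_mul, det_mul, det_transpose] at h
  show (matHom Q g).det * (matHom Q g).det = 1
  exact mul_left_cancel₀ (det_gram_ne_zero hQ) (by linear_combination h)

section finiteness
variable [Fintype F]

local notation "Ω" => AlgebraicClosure F

/-- The eigenvalues of an isometry are closed under inversion. -/
theorem invClosed_charpoly (hQ : (QuadraticMap.polarBilin Q).Nondegenerate) (g : Cfsg.isometryGroup F (⇑Q)) :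
    InvClosed (matHom Q g).charpoly := by
  intro x hx h
  set φ := (algebraMap F Ω).mapMatrix (m := ι) with hφ
  set H := φ (matHom Q g) with hH
  set J := φ (gram Q) with hJ
  have hJJ : Hᵀ * J * H = J := by
    rw [hH, hJ, hφ, RingHom.mapMatrix_apply, ← Matrix.transpose_map, ← RingHom.mapMatrix_apply,
      ← RingHom.mapMatrix_apply, ← map_mul, ← map_mul, gram_act]
  rw [aeval_def, ← eval_map, ← charpoly_map, eval_charpoly] at h
  obtain ⟨v, hv0, hv⟩ := Matrix.exists_mulVec_eq_zero_iff.2 h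
  have hsc : ∀ (c : Ω) (w : ι → Ω), Matrix.scalar ι c *ᵥ w = c • w := fun c w =>
    funext fun i => by simp [Matrix.scalar_apply, Matrix.mulVec_diagonal]
  rw [Matrix.sub_mulVec, sub_eq_zero, hsc] at hv
  rw [aeval_def, ← eval_map, ← charpoly_map, ← charpoly_transpose, eval_charpoly]
  refine Matrix.exists_mulVec_eq_zero_iff.1 ⟨J *ᵥ v, fun h0 => hv0 ?_, ?_⟩
  · refine Matrix.eq_zero_of_mulVec_eq_zero ?_ h0
    rw [hJ, hφ, ← RingHom.map_det, _root_.map_ne_zero]
    exact det_gram_ne_zero hQ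
  · have h1 : x • (Hᵀ *ᵥ (J *ᵥ v)) = J *ᵥ v := by
      conv_rhs => rw [← hJJ, ← Matrix.mulVec_mulVec, show H *ᵥ v = x • v from hv.symm, Matrix.mulVec_smul,
        ← Matrix.mulVec_mulVec]
    rw [Matrix.sub_mulVec, sub_eq_zero, hsc]
    conv_lhs => rw [← h1, inv_smul_smul₀ hx]
    rfl

theorem detHom_of_mem_omega (h2 : (2 : F) ≠ 0) (hQ : (QuadraticMap.polarBilin Q).Nondegenerate)
    (hn : 2 ≤ Fintype.card ι) {g : Cfsg.isometryGroup F (⇑Q)} (hg : g ∈ Cfsg.Omega F (⇑Q)) :
    detHom Q g = 1 := ((mem_omega_iff h2 hQ hn g).1 hg).1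

theorem sq_mem_omega (h2 : (2 : F) ≠ 0) (hQ : (QuadraticMap.polarBilin Q).Nondegenerate)
    (hn : 2 ≤ Fintype.card ι) (g : Cfsg.isometryGroup F (⇑Q)) : g ^ 2 ∈ Cfsg.Omega F (⇑Q) := by
  rw [mem_omega_iff h2 hQ hn, pow_two, map_mul, map_mul, detHom_sq hQ, Int.units_mul_self]
  exact ⟨rfl, rfl⟩

theorem mem_omega_of_odd (h2 : (2 : F) ≠ 0) (hQ : (QuadraticMap.polarBilin Q).Nondegenerate)
    (hn : 2 ≤ Fintype.card ι) (g : Cfsg.isometryGroup F (⇑Q)) (hg : Odd (orderOf g)) :
    g ∈ Cfsg.Omega F (⇑Q) := by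
  obtain ⟨c, hc⟩ := hg
  have : g = (g ^ (c + 1)) ^ 2 := by
    rw [← pow_mul, show (c + 1) * 2 = orderOf g + 1 by omega, pow_succ, pow_orderOf_eq_one, one_mul]
  rw [this]
  exact sq_mem_omega h2 hQ hn _

/-- All eigenvalues, if one of them has a full orbit. -/
theorem roots_eq (p s : ℕ) [Fact p.Prime] [CharP F p] [Fact s.Prime] (hs2 : s ≠ 2) {M : Matrix ι ι F}
    (hinv : InvClosed M.charpoly) {n : ℕ} (hι : Fintype.card ι = 2 * n + 1) (hdet : M.det = 1) {l η : ℕ}
    (hl : l = orderOf ((Fintype.card F : ℕ) : ZMod s)) (hη : (Odd l ∧ η = l) ∨ (Even l ∧ 2 * η = l))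
    (hn : n ≤ η) {N : ℕ} (hN : p.Coprime N) (hsN : s ∣ N) {z : Ω} (hz : orderOf z = N)
    (h : aeval z M.charpoly = 0) :
    M.charpoly.Separable ∧ aeval (1 : Ω) M.charpoly = 0 ∧
      ∀ y : Ω, aeval y M.charpoly = 0 → y = 1 ∨ orderOf y = N := by
  classical
  have hN3 : 2 < N := lt_of_lt_of_le (lt_of_le_of_ne (Fact.out : s.Prime).two_le (Ne.symm hs2))
    (Nat.le_of_dvd (Nat.pos_of_ne_zero fun h0 => (Fact.out : p.Prime).ne_one (by simpa [h0] using hN)) hsN)
  obtain ⟨T, hT, hroot, hTinv⟩ := orbit_bound p s hs2 hinv hl hη hN hsN hz h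
  set f := M.charpoly.map (algebraMap F Ω) with hf
  have hf0 : f ≠ 0 := ((charpoly_monic M).map _).ne_zero
  have hle : T.val ≤ f.roots := (Multiset.le_iff_subset T.nodup).2 fun y hy => by
    rw [mem_roots hf0, IsRoot, hf, eval_map, ← aeval_def]
    exact (hroot y hy).1
  obtain ⟨R, hR⟩ := Multiset.le_iff_exists_add.1 hle
  have hcard : f.roots.card = 2 * n + 1 := by
    rw [← (IsAlgClosed.splits f).natDegree_eq_card_roots, hf, natDegree_map, charpoly_natDegree_eq_dim, hι]
  rw [hR, Multiset.card_add] at hcard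
  have hne : ∀ y ∈ T, y⁻¹ ≠ y := fun y hy he => by
    have hy0 : y ≠ 0 := fun h0 => by
      have := (hroot y hy).2
      rw [h0, orderOf_zero] at this
      omega
    have h2 : y ^ 2 = 1 := by
      rw [pow_two]
      nth_rw 1 [← he]
      exact inv_mul_cancel₀ hy0
    have := Nat.le_of_dvd two_pos (orderOf_dvd_of_pow_eq_one h2)
    rw [(hroot y hy).2] at this
    omega
  have heven : Even T.card := by
    have h1 : ∏ _y ∈ T, (-1 : ℤ) = 1 := Finset.prod_involution (fun y _ => y⁻¹) (by simp)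
      (fun y hy _ => hne y hy) (fun y hy => hTinv y hy) (fun y _ => inv_inv y)
    rw [Finset.prod_const] at h1
    exact (neg_one_pow_eq_one_iff_even (by norm_num)).1 h1
  have hTc : T.card = 2 * n := by
    obtain ⟨c, hc⟩ := heven
    rw [Finset.card_val] at hcard
    omega
  obtain ⟨w, rfl⟩ : ∃ w, R = {w} := Multiset.card_eq_one.1 (by rw [Finset.card_val] at hcard; omega)
  have hprod : T.val.prod = 1 := by
    rw [Finset.prod_val]
    refine Finset.prod_involution (fun y _ => y⁻¹) (fun y hy => ?_) (fun y hy _ => hne y hy)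
      (fun y hy => hTinv y hy) (fun y _ => inv_inv y)
    have hy0 : y ≠ 0 := fun h0 => by
      have := (hroot y hy).2
      rw [h0, orderOf_zero] at this
      omega
    exact mul_inv_cancel₀ hy0
  have hw : w = 1 := by
    have h1 := det_eq_prod_roots_charpoly ((algebraMap F Ω).mapMatrix M)
    rw [RingHom.mapMatrix_apply, charpoly_map, ← hf, hR, Multiset.prod_add, hprod, one_mul,
      Multiset.prod_singleton, ← RingHom.mapMatrix_apply, ← RingHom.map_det, hdet, map_one] at h1
    exact h1.symm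
  have hwT : w ∉ T.val := fun hwT => by
    have := (hroot w hwT).2
    rw [hw, orderOf_one] at this
    omega
  have hnd : f.roots.Nodup := by
    rw [hR, Multiset.nodup_add]
    exact ⟨T.nodup, Multiset.nodup_singleton w, Multiset.disjoint_singleton.2 hwT⟩
  refine ⟨?_, ?_, fun y hy => ?_⟩
  rotate_left 1
  · have h1 : w ∈ f.roots := by rw [hR]; simp
    rw [mem_roots hf0, IsRoot, hf, eval_map, ← aeval_def, hw] at h1
    exact h1
  rotate_left 1
  · rw [← separable_map (algebraMap F Ω), ← hf]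
    exact (nodup_roots_iff_of_splits hf0 (IsAlgClosed.splits f)).1 hnd
  · have h1 : y ∈ f.roots := by
      rw [mem_roots hf0, IsRoot, hf, eval_map, ← aeval_def]
      exact hy
    rw [hR, Multiset.mem_add, Multiset.mem_singleton] at h1
    rcases h1 with h1 | h1
    · exact Or.inr (hroot y h1).2
    · exact Or.inl (h1.trans hw)

/-- A simple eigenvalue `1` gives a line of fixed vectors. -/
theorem fixed_line {M : Matrix ι ι F} (hsep : M.charpoly.Separable) (h1 : aeval (1 : Ω) M.charpoly = 0) :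
    ∃ e : ι → F, e ≠ 0 ∧ M *ᵥ e = e ∧ ∀ v, M *ᵥ v = v → ∃ c : F, v = c • e := by
  have hroot : M.charpoly.eval 1 = 0 := by
    rw [← map_one (algebraMap F Ω), aeval_algebraMap_apply_eq_algebraMap_eval,
      map_eq_zero_iff _ (algebraMap F Ω).injective] at h1
    exact h1
  rw [eval_charpoly, map_one] at hroot
  obtain ⟨e, he0, he⟩ := Matrix.exists_mulVec_eq_zero_iff.2 hroot
  rw [Matrix.sub_mulVec, sub_eq_zero, Matrix.one_mulVec] at he
  refine ⟨e, he0, he.symm, fun v hv => ?_⟩
  have hle := (Matrix.toLin' M).finrank_eigenspace_le 1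
  rw [Matrix.charpoly_toLin'] at hle
  have hle2 : Module.finrank F (Module.End.eigenspace (Matrix.toLin' M) (1 : F)) ≤ 1 :=
    hle.trans (rootMultiplicity_le_one_of_separable hsep 1)
  have hmem : ∀ u, M *ᵥ u = u → u ∈ Module.End.eigenspace (Matrix.toLin' M) (1 : F) := fun u hu => by
    rw [Module.End.mem_eigenspace_iff, Matrix.toLin'_apply, hu, one_smul]
  obtain ⟨w, hw⟩ := finrank_le_one_iff.1 hle2
  obtain ⟨a, ha⟩ := hw ⟨e, hmem e he.symm⟩
  obtain ⟨b, hb⟩ := hw ⟨v, hmem v hv⟩
  have ha' : a • (w : ι → F) = e := congrArg Subtype.val ha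
  have hb' : b • (w : ι → F) = v := congrArg Subtype.val hb
  refine ⟨b * a⁻¹, ?_⟩
  have ha0 : a ≠ 0 := fun h0 => he0 (by rw [← ha', h0, zero_smul])
  rw [← hb', ← ha', smul_smul, inv_mul_cancel_right₀ ha0]

/-- The fixed line of an isometry of order prime to `p` is anisotropic. -/
theorem fixed_aniso (hQ : (QuadraticMap.polarBilin Q).Nondegenerate) (g : Cfsg.isometryGroup F (⇑Q)) {N : ℕ}
    (hN : (N : F) ≠ 0) (hg : g ^ N = 1) {e : ι → F} (he0 : e ≠ 0) (he : act Q g e = e)
    (hfix : ∀ v, act Q g v = v → ∃ c : F, v = c • e) : Q e ≠ 0 := by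
  intro hQe
  obtain ⟨v, hv⟩ := exists_polar_ne_zero Q hQ he0
  let S : ι → F := ∑ i ∈ Finset.range N, act Q (g ^ i) v
  have hei : ∀ i : ℕ, act Q (g ^ i) e = e := by
    intro i
    induction i with
    | zero => rw [pow_zero, act_one]
    | succ i ih => rw [pow_succ, act_mul, he, ih]
  have hS : act Q g S = S := by
    show matHom Q g *ᵥ ∑ i ∈ Finset.range N, act Q (g ^ i) v = _
    rw [Matrix.mulVec_sum, Finset.sum_congr rfl fun i _ =>
      show matHom Q g *ᵥ act Q (g ^ i) v = act Q (g ^ (i + 1)) v by rw [pow_succ', act_mul]; rfl]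
    have h1 := Finset.sum_range_succ' (fun i => act Q (g ^ i) v) N
    rw [Finset.sum_range_succ, hg, act_one, pow_zero, act_one] at h1
    exact (add_right_cancel h1).symm
  obtain ⟨c, hc⟩ := hfix S hS
  have h2 : pf Q e S = (N : F) * pf Q e v := by
    show QuadraticMap.polarBilin Q e S = _
    rw [map_sum, Finset.sum_congr rfl fun i _ => show QuadraticMap.polarBilin Q e (act Q (g ^ i) v) = pf Q e v by
      show pf Q e _ = _
      nth_rw 1 [← hei i]
      exact pf_act _ _ _, Finset.sum_const, Finset.card_range, nsmul_eq_mul]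
  rw [hc, pf, QuadraticMap.polar_smul_right, ← pf, pf_self, hQe, mul_zero, smul_zero] at h2
  exact mul_ne_zero hN hv h2.symm

/-- `- 1`. -/
def negOne (Q : QuadraticForm F (ι → F)) : Cfsg.isometryGroup F (⇑Q) :=
  mkIso Q (-1) (-1) (by simp) (by simp) (fun x => by simp [Matrix.neg_mulVec])

theorem act_negOne (x : ι → F) : act Q (negOne Q) x = -x := by
  show (-1 : Matrix ι ι F) *ᵥ x = -x
  simp [Matrix.neg_mulVec]

theorem detHom_negOne {n : ℕ} (hι : Fintype.card ι = 2 * n + 1) : detHom Q (negOne Q) = -1 := by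
  show (-1 : Matrix ι ι F).det = -1
  rw [det_neg, det_one, mul_one, hι, Odd.neg_one_pow ⟨n, rfl⟩]

theorem spinSign_negOne (h2 : (2 : F) ≠ 0) {c : F} (hc : c ≠ 0) :
    spinSign Q c (negOne Q) = (-1) ^ (Nat.card {x : ι → F // Q x = c} / 2) := by
  classical
  letI := Fintype.ofFinite {x : ι → F // Q x = c}
  have h : sphereHom Q c (negOne Q) ^ 2 = 1 := by
    rw [pow_two, ← map_mul, show negOne Q * negOne Q = 1 from ext_act fun x => by
      rw [act_mul, act_negOne, act_negOne, neg_neg, act_one], map_one]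
  show Equiv.Perm.sign (sphereHom Q c (negOne Q)) = _
  rw [Equiv.Perm.sign_of_pow_two_eq_one h, Nat.card_eq_fintype_card]
  have h0 : Fintype.card (Function.fixedPoints (sphereHom Q c (negOne Q))) = 0 := by
    refine Fintype.card_eq_zero_iff.2 ⟨fun ⟨x, hx⟩ => ?_⟩
    have h1 : -x.1 = x.1 := (act_negOne x.1).symm.trans (congrArg Subtype.val hx)
    have h3 : (2 : F) • x.1 = 0 := by rw [two_smul]; nth_rw 1 [← h1]; rw [neg_add_cancel]
    exact hc (by rw [← x.2, (smul_eq_zero.mp h3).resolve_left h2, QuadraticMap.map_zero])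
  rw [h0, Nat.sub_zero]

end finiteness

end CfsgLib.Singer.Orth
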