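import Cfsg.Agent.Lib.Singer.OrthBasic
import Cfsg.Agent.Lib.ClassicalForms.Ortho.POmegaCard
import Mathlib.GroupTheory.Perm.Cycle.Type

/-!
Elements of order `2 * s` and `s * p` in `Ω(2n+1, q)` for a prime `s` of largest possible degree.
-/

set_option autoImplicit false
set_option linter.unusedSectionVars false

namespace CfsgLib.Singer.Orth

open Polynomial Matrix CfsgLib.OrthGen CfsgLib.Classes CfsgLib.Singer.Symp CfsgLib.ClassicalForms

variable {F : Type*} [Field F] [Fintype F]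

local notation "Ω" => AlgebraicClosure F

theorem nondeg_qOdd' (h2 : (2 : F) ≠ 0) (n : ℕ) : (QuadraticMap.polarBilin (qOdd n F)).Nondegenerate :=
  nondeg_iff_polarBilin.2 (nondeg_qOdd h2 n)

theorem card_index_qOdd (n : ℕ) : Fintype.card (Unit ⊕ (Fin n ⊕ Fin n)) = 2 * n + 1 := by simp; omega

open scoped Classical in
theorem card_value_qOdd (h2 : (2 : F) ≠ 0) (n : ℕ) {c : F} (hc : c ≠ 0) :
    (Nat.card {v : Unit ⊕ (Fin n ⊕ Fin n) → F // qOdd n F v = c} : ℤ) =
      (Fintype.card F : ℤ) ^ (2 * n) + (if IsSquare c then 1 else -1) * (Fintype.card F : ℤ) ^ n := by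
  have h := card_values_qH (sqForm F) c n
  rw [← CfsgLib.ClassicalForms.card_values_congr (oddEquiv n) (qH_oddEquiv n) c] at h
  simp only [Nat.card_eq_fintype_card (α := F)] at h
  have hs : (Nat.card {v : F // sqForm F v = c} : ℤ) = if IsSquare c then 2 else 0 := by
    split_ifs with hsq
    · obtain ⟨a, rfl⟩ := hsq
      have ha : a ≠ 0 := fun h0 => hc (by rw [h0, mul_zero])
      have : Fintype.card {v : F // sqForm F v = a * a} = 2 := by
        refine (Fintype.card_of_subtype {a, -a} fun x => ?_).trans (Finset.card_pair fun e => ha ?_)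
        · simp [mul_self_eq_mul_self_iff]
        · exact (mul_eq_zero.1 (show (2 : F) * a = 0 by linear_combination e)).resolve_left h2
      rw [Nat.card_eq_fintype_card, this, Nat.cast_two]
    · rw [Nat.card_eq_zero.2 (Or.inl ⟨fun x => hsq ⟨x.1, by rw [← sqForm_apply]; exact x.2.symm⟩⟩),
        Nat.cast_zero]
  rw [hs] at h
  apply mul_right_cancel₀ (show (Fintype.card F : ℤ) ≠ 0 by exact_mod_cast Fintype.card_ne_zero)
  rw [h]
  split_ifs <;> ring

theorem dvd_two_mul {l η : ℕ} (hη : (Odd l ∧ η = l) ∨ (Even l ∧ 2 * η = l)) : l ∣ 2 * η := by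
  rcases hη with ⟨-, h⟩ | ⟨-, h⟩ <;> rw [h]
  exact Dvd.intro_left 2 rfl

/-- The square class of the fixed line of a fixed-point-free element of order `s`. -/
theorem isSquare_fixed_iff (h2 : (2 : F) ≠ 0) (n : ℕ) {s : ℕ} [Fact s.Prime] (hs2 : s ≠ 2)
    (hl : orderOf ((Fintype.card F : ℕ) : ZMod s) ∣ 2 * n) (x : Cfsg.isometryGroup F (⇑(qOdd n F)))
    (hx : x ^ s = 1) {e : Unit ⊕ (Fin n ⊕ Fin n) → F} (he : act (qOdd n F) x e = e)
    (hfix : ∀ v, act (qOdd n F) x v = v → ∃ c : F, v = c • e) (hQ : qOdd n F e ≠ 0) :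
    IsSquare (qOdd n F e) ↔ ((Fintype.card F : ℕ) : ZMod s) ^ n = 1 := by
  classical
  let f : Function.End {v // (qOdd n F) v = (qOdd n F) e} := fun v => ⟨act (qOdd n F) x v, by rw [Q_act, v.2]⟩
  have hfr : f ^ s ^ 1 = 1 := by
    rw [pow_one]
    have hit : ∀ (k : ℕ) (v : {v // (qOdd n F) v = (qOdd n F) e}),
        ((show {v // (qOdd n F) v = (qOdd n F) e} → {v // (qOdd n F) v = (qOdd n F) e} from f ^ k) v : _) = ⟨act (qOdd n F) (x ^ k) v.1, by rw [Q_act, v.2]⟩ := by
      intro k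
      induction k with
      | zero => intro v; rw [pow_zero]; exact Subtype.ext (by simp [act_one]; rfl)
      | succ k ih =>
        intro v
        refine Subtype.ext ?_
        rw [pow_succ' f k]
        show act (qOdd n F) x ((show {v // (qOdd n F) v = (qOdd n F) e} → {v // (qOdd n F) v = (qOdd n F) e} from f ^ k) v).1 = _
        rw [ih]
        simp only [pow_succ', act_mul]
    refine funext fun v => (hit s v).trans (Subtype.ext ?_)
    simp only [hx, act_one]
    rfl
  have hmod := Equiv.Perm.card_fixedPoints_modEq (f := f) (p := s) (n := 1) hfr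
  have hfp : Fintype.card f.fixedPoints = 2 := by
    have hne : e ≠ -e := fun h => hQ (by
      have h3 : (2 : F) • e = 0 := by rw [two_smul]; nth_rw 2 [h]; rw [add_neg_cancel]
      rw [(smul_eq_zero.mp h3).resolve_left h2, QuadraticMap.map_zero])
    have h0 : ∀ v : {v // (qOdd n F) v = (qOdd n F) e}, v ∈ f.fixedPoints ↔ act (qOdd n F) x v.1 = v.1 := fun v =>
      ⟨fun h => congrArg Subtype.val h, fun h => Subtype.ext h⟩
    rw [← Finset.card_pair (a := (⟨e, rfl⟩ : {v // (qOdd n F) v = (qOdd n F) e})) (b := ⟨-e, QuadraticMap.map_neg (qOdd n F) e⟩)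
      (fun h => hne (congrArg Subtype.val h))]
    refine Fintype.card_of_subtype _ fun v => ?_
    rw [Finset.mem_insert, Finset.mem_singleton, h0]
    constructor
    · rintro (rfl | rfl)
      · exact he
      · show act (qOdd n F) x (-e) = -e
        rw [← neg_one_smul F e, act_smul, he]
    · intro hv
      obtain ⟨c, hc⟩ := hfix v.1 hv
      have h1 : c * c * (qOdd n F) e = 1 * 1 * (qOdd n F) e := by rw [← Q_smul, ← hc, v.2, one_mul, one_mul]
      rcases mul_self_eq_mul_self_iff.1 (mul_right_cancel₀ hQ h1) with rfl | rfl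
      · exact Or.inl (Subtype.ext (hc.trans (one_smul F e)))
      · exact Or.inr (Subtype.ext (hc.trans (neg_one_smul F e)))
  have hN : (Nat.card {v // (qOdd n F) v = (qOdd n F) e} : ZMod s) = 2 := by
    rw [Nat.card_eq_fintype_card, (ZMod.natCast_eq_natCast_iff _ _ _).2 hmod, hfp, Nat.cast_two]
  have hval := congrArg (Int.cast : ℤ → ZMod s) (card_value_qOdd h2 n hQ)
  push_cast at hval
  rw [hN, orderOf_dvd_iff_pow_eq_one.1 hl] at hval
  have hne : (-1 : ZMod s) ≠ 1 := neg_one_ne_one_of_prime hs2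
  by_cases hsq : IsSquare ((qOdd n F) e)
  · rw [if_pos hsq] at hval
    exact iff_of_true hsq (by linear_combination -hval)
  · rw [if_neg hsq] at hval
    refine iff_of_false hsq fun h => hne ?_
    rw [h] at hval
    linear_combination -hval

/-- The spinor criterion for `-refl`. -/
theorem negRefl_mem_omega_iff (h2 : (2 : F) ≠ 0) {n : ℕ} (hn : 1 ≤ n) {e : Unit ⊕ (Fin n ⊕ Fin n) → F}
    (hQ : qOdd n F e ≠ 0) :
    negOne (qOdd n F) * refl (qOdd n F) hQ ∈ Cfsg.Omega F (⇑(qOdd n F)) ↔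
      ((((Fintype.card F : ℕ) : ZMod 4) ^ n = 1) ↔ IsSquare (qOdd n F e)) := by
  classical
  have hι := card_index_qOdd n
  rw [mem_omega_iff h2 (nondeg_qOdd' h2 n) (by omega), map_mul, detHom_negOne hι, detHom_refl, map_mul,
    spinSign_negOne h2 one_ne_zero]
  have hr : spinSign (qOdd n F) 1 (refl (qOdd n F) hQ) = if IsSquare (qOdd n F e) then -1 else 1 := by
    split_ifs with h
    · exact (spinSign_refl h2 one_ne_zero hQ).2 (by rw [one_div]; exact isSquare_inv.2 h)
    · exact (spinSign_refl' h2 one_ne_zero hQ).2 (by rw [one_div]; exact fun h' => h (isSquare_inv.1 h'))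
  rw [hr]
  set a := Fintype.card F ^ n with ha
  have hcard : Nat.card {v // qOdd n F v = (1 : F)} = a * (a + 1) := by
    have h := card_value_qOdd h2 n (one_ne_zero (α := F))
    rw [if_pos IsSquare.one] at h
    have : (Nat.card {v // qOdd n F v = (1 : F)} : ℤ) = ((a * (a + 1) : ℕ) : ℤ) := by
      rw [h, ha]; push_cast; ring
    exact_mod_cast this
  have hodd : Odd a := by
    have hc := CfsgLib.ClassicalForms.card_odd_of_two_ne_zero h2
    rw [Nat.card_eq_fintype_card] at hc
    exact hc.pow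
  have hz : ((Fintype.card F : ℕ) : ZMod 4) ^ n = 1 ↔ a % 4 = 1 := by
    rw [← Nat.cast_pow, ← ha, ← Nat.cast_one, ZMod.natCast_eq_natCast_iff', Nat.one_mod]
  rw [hcard, hz]
  obtain ⟨k, hk⟩ := hodd
  have hpar : Even (a * (a + 1) / 2) ↔ ¬ a % 4 = 1 := by
    rw [hk, show (2 * k + 1) * (2 * k + 1 + 1) = ((2 * k + 1) * (k + 1)) * 2 by ring,
      Nat.mul_div_cancel _ two_pos, Nat.even_mul, Nat.even_iff, Nat.even_iff]
    omega
  have hp : (-1 : ℤˣ) ^ (a * (a + 1) / 2) = if a % 4 = 1 then -1 else 1 := by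
    split_ifs with h
    · exact (Nat.not_even_iff_odd.1 fun he => hpar.1 he h).neg_one_pow
    · exact (hpar.2 h).neg_one_pow
  rw [hp]
  split_ifs with h1 h3 h3 <;> simp [h1, h3]

theorem act_neg {ι : Type} [Fintype ι] [DecidableEq ι] {Q : QuadraticForm F (ι → F)}
    (g : Cfsg.isometryGroup F (⇑Q)) (v : ι → F) : act Q g (-v) = -act Q g v := Matrix.mulVec_neg _ _

theorem negRefl_commute {ι : Type} [Fintype ι] [DecidableEq ι] {Q : QuadraticForm F (ι → F)}
    (g : Cfsg.isometryGroup F (⇑Q)) {e : ι → F} (he : act Q g e = e) (hQ : Q e ≠ 0) :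
    Commute (negOne Q * refl Q hQ) g := by
  refine ext_act fun v => ?_
  rw [act_mul, act_mul, act_mul, act_mul, act_negOne, act_negOne, act_neg, act_refl, act_refl, act_sub, act_smul, he]
  congr 4
  nth_rw 1 [← he]
  exact pf_act g e v

theorem negRefl_spec {ι : Type} [Fintype ι] [DecidableEq ι] {Q : QuadraticForm F (ι → F)}
    (h2 : (2 : F) ≠ 0) (hn : 2 ≤ Fintype.card ι) {e : ι → F} (hQ : Q e ≠ 0) :
    orderOf (negOne Q * refl Q hQ) = 2 := by
  refine orderOf_eq_prime (ext_act fun v => ?_) fun h => ?_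
  · rw [pow_two, act_mul, act_mul, act_mul, act_negOne, act_negOne, act_neg, ← act_mul, OrthGen.refl_mul_self, act_one,
      neg_neg]
  · have hv : ∀ v, ∃ c : F, c • e = v := fun v => by
      have h1 := congrArg (fun g => act Q g v) h
      simp only [act_mul, act_negOne, act_refl, act_one] at h1
      refine ⟨(Q e)⁻¹ * pf Q e v / 2, ?_⟩
      rw [div_eq_inv_mul, ← smul_smul]
      have h4 : ((Q e)⁻¹ * pf Q e v) • e = (2 : F) • v := by
        rw [two_smul]; nth_rw 2 [← h1]; abel
      rw [h4, smul_smul, inv_mul_cancel₀ h2, one_smul]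
    have h5 := finrank_le_one e hv
    rw [Module.finrank_fintype_fun_eq_card] at h5
    omega

variable {n : ℕ} {l η : ℕ}

/-- Necessity at the characteristic. -/
theorem eta_lt_of_orderOf (p s : ℕ) [Fact p.Prime] [CharP F p] [Fact s.Prime] (hs2 : s ≠ 2) (hsp : s ≠ p)
    (h2 : (2 : F) ≠ 0) (hn : 1 ≤ n) (hl : l = orderOf ((Fintype.card F : ℕ) : ZMod s))
    (hη : (Odd l ∧ η = l) ∨ (Even l ∧ 2 * η = l)) (g : Cfsg.isometryGroup F (⇑(qOdd n F)))
    (hgO : g ∈ Cfsg.Omega F (⇑(qOdd n F))) (hg : orderOf g = s * p) : η < n := by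
  classical
  have hs := (Fact.out : s.Prime)
  have hp := (Fact.out : p.Prime)
  have hps : p.Coprime s := (Nat.coprime_primes hp hs).2 hsp.symm
  have hQ := nondeg_qOdd' h2 n
  have hι := card_index_qOdd n
  set M := matHom _ g with hM
  have hoM : orderOf M = s * p := (orderOf_matHom g).trans hg
  obtain ⟨f, hf, hqf⟩ := FiniteField.card F p
  have hoX : orderOf (M ^ Fintype.card F) = s := by
    rw [orderOf_pow' _ Fintype.card_ne_zero, hoM, hqf]
    obtain ⟨f', hf'⟩ : ∃ f', (f : ℕ) = f' + 1 := ⟨f - 1, by have := f.pos; omega⟩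
    rw [hf', pow_succ, Nat.gcd_mul_right, Nat.Coprime.gcd_eq_one (hps.symm.pow_right f'), one_mul,
      Nat.mul_div_cancel _ hp.pos]
  have hsF : (s : F) ≠ 0 := fun h => by
    rw [CharP.cast_eq_zero_iff F p] at h
    exact hp.ne_one (hps.eq_one_of_dvd h)
  have hXs : (M ^ Fintype.card F) ^ s = 1 := orderOf_dvd_iff_pow_eq_one.1 hoX.dvd
  obtain ⟨z, hz, hzo⟩ : ∃ z : Ω, aeval z M.charpoly = 0 ∧ orderOf z = s := by
    by_contra! hno
    have h1 : (M ^ Fintype.card F) ^ 1 = 1 := pow_eq_one_of_roots hsF hXs fun z hz => by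
      rw [FiniteField.Matrix.charpoly_pow_card] at hz
      have h1 : orderOf z ∣ s := orderOf_dvd_of_pow_eq_one (root_pow_eq_one hXs (by
        rwa [FiniteField.Matrix.charpoly_pow_card]))
      exact orderOf_dvd_iff_pow_eq_one.1 (((Nat.dvd_prime hs).1 h1).resolve_right (hno z hz)).dvd
    rw [pow_one] at h1
    rw [h1, orderOf_one] at hoX
    exact hs.ne_one hoX.symm
  have hinv := invClosed_charpoly hQ g
  obtain ⟨T, hT, hroot, -⟩ := orbit_bound p s hs2 hinv hl hη hps dvd_rfl hzo hz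
  have hle : η ≤ n := by
    have h1 : T.card ≤ (M.charpoly.map (algebraMap F Ω)).roots.toFinset.card :=
      Finset.card_le_card fun y hy => by
        rw [Multiset.mem_toFinset, mem_roots ((charpoly_monic M).map _).ne_zero, IsRoot, eval_map, ← aeval_def]
        exact (hroot y hy).1
    have h3 := h1.trans ((Multiset.toFinset_card_le _).trans (card_roots' _))
    rw [natDegree_map, charpoly_natDegree_eq_dim, hι] at h3
    omega
  refine lt_of_le_of_ne hle fun he => ?_
  obtain ⟨hsep, -, hroots⟩ := roots_eq p s hs2 hinv hι (detHom_of_mem_omega h2 hQ (by omega) hgO) hl hη he.ge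
    hps dvd_rfl hzo hz
  have h1 : M ^ s = (1 : F) • 1 := pow_eq_smul_of_roots (sep_of_charpoly hsep) hs.pos 1 fun y hy => by
    rw [map_one]
    rcases hroots y hy with rfl | h
    · exact one_pow s
    · exact orderOf_dvd_iff_pow_eq_one.1 h.dvd
  rw [one_smul] at h1
  have h4 := Nat.le_of_dvd hs.pos (orderOf_dvd_of_pow_eq_one h1)
  rw [hoM] at h4
  have h5 := hp.two_le
  have h6 := hs.pos
  nlinarith

/-- Necessity at two. -/
theorem two_nec (p s : ℕ) [Fact p.Prime] [CharP F p] [Fact s.Prime] (hs2 : s ≠ 2) (hsp : s ≠ p) (hp2 : p ≠ 2)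
    (h2 : (2 : F) ≠ 0) (hn : 1 ≤ n) (hl : l = orderOf ((Fintype.card F : ℕ) : ZMod s))
    (hη : (Odd l ∧ η = l) ∨ (Even l ∧ 2 * η = l)) (g : Cfsg.isometryGroup F (⇑(qOdd n F)))
    (hgO : g ∈ Cfsg.Omega F (⇑(qOdd n F))) (hg : orderOf g = 2 * s) :
    η ≤ n ∧ (η = n →
      (((Fintype.card F : ℕ) : ZMod 4) ^ n = 1 ↔ ((Fintype.card F : ℕ) : ZMod s) ^ n = 1)) := by
  classical
  have hs := (Fact.out : s.Prime)
  have hp := (Fact.out : p.Prime)
  have hQ := nondeg_qOdd' h2 n
  have hι := card_index_qOdd n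
  have hcop : p.Coprime (2 * s) := Nat.Coprime.mul_right ((Nat.coprime_primes hp Nat.prime_two).2 hp2)
    ((Nat.coprime_primes hp hs).2 hsp.symm)
  have hNF : ((2 * s : ℕ) : F) ≠ 0 := fun h => by
    rw [CharP.cast_eq_zero_iff F p] at h
    exact hp.ne_one (hcop.eq_one_of_dvd h)
  set M := matHom _ g with hM
  have hoM : orderOf M = 2 * s := (orderOf_matHom g).trans hg
  have hMN : M ^ (2 * s) = 1 := orderOf_dvd_iff_pow_eq_one.1 hoM.dvd
  obtain ⟨z, hz, hsz⟩ : ∃ z : Ω, aeval z M.charpoly = 0 ∧ s ∣ orderOf z := by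
    by_contra! hno
    have h1 : M ^ 2 = 1 := pow_eq_one_of_roots hNF hMN fun z hz => by
      have h1 : orderOf z ∣ 2 * s := orderOf_dvd_of_pow_eq_one (root_pow_eq_one hMN hz)
      exact orderOf_dvd_iff_pow_eq_one.1 (((hs.coprime_iff_not_dvd.2 (hno z hz)).symm).dvd_of_dvd_mul_right h1)
    have := Nat.le_of_dvd two_pos (orderOf_dvd_of_pow_eq_one h1)
    have := hs.two_le
    omega
  have hinv := invClosed_charpoly hQ g
  have hzdvd : orderOf z ∣ 2 * s := orderOf_dvd_of_pow_eq_one (root_pow_eq_one hMN hz)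
  have hzc : p.Coprime (orderOf z) := Nat.Coprime.coprime_dvd_right hzdvd hcop
  obtain ⟨T, hT, hroot, -⟩ := orbit_bound p s hs2 hinv hl hη hzc hsz rfl hz
  have hle : η ≤ n := by
    have h1 : T.card ≤ (M.charpoly.map (algebraMap F Ω)).roots.toFinset.card :=
      Finset.card_le_card fun y hy => by
        rw [Multiset.mem_toFinset, mem_roots ((charpoly_monic M).map _).ne_zero, IsRoot, eval_map, ← aeval_def]
        exact (hroot y hy).1
    have h3 := h1.trans ((Multiset.toFinset_card_le _).trans (card_roots' _))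
    rw [natDegree_map, charpoly_natDegree_eq_dim, hι] at h3
    omega
  refine ⟨hle, fun he => ?_⟩
  obtain ⟨hsep, h1root, hroots⟩ := roots_eq p s hs2 hinv hι (detHom_of_mem_omega h2 hQ (by omega) hgO) hl hη
    he.ge hzc hsz rfl hz
  have hzs : orderOf z = 2 * s := by
    obtain ⟨a, ha⟩ := hsz
    rw [ha, mul_comm 2 s, Nat.mul_dvd_mul_iff_left hs.pos, Nat.dvd_prime Nat.prime_two] at hzdvd
    rcases hzdvd with rfl | rfl
    · exfalso
      have h1 : M ^ s = 1 := pow_eq_one_of_roots hNF hMN fun y hy => by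
        rcases hroots y hy with rfl | h
        · exact one_pow s
        · exact orderOf_dvd_iff_pow_eq_one.1 (by rw [h, ha, mul_one])
      have := Nat.le_of_dvd hs.pos (orderOf_dvd_of_pow_eq_one h1)
      have := hs.pos
      omega
    · rw [ha, mul_comm]
  have hG : aeval M ((X - 1) * (X ^ s + 1) : F[X]) = 0 := by
    refine aeval_eq_zero_of_roots (sep_of_charpoly hsep) _ ?_ fun y hy => ?_
    · refine mul_ne_zero ?_ ?_
      · simpa using X_sub_C_ne_zero (1 : F)
      · simpa using X_pow_add_C_ne_zero hs.pos (1 : F)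
    · rcases hroots y hy with rfl | h
      · simp
      · rw [hzs] at h
        have h1 : (y ^ s) ^ 2 = 1 := by rw [← pow_mul, mul_comm, ← h, pow_orderOf_eq_one]
        have h3 : y ^ s = -1 := (sq_eq_one_iff.1 h1).resolve_left fun h4 => by
          have := Nat.le_of_dvd hs.pos (orderOf_dvd_of_pow_eq_one h4)
          have := hs.pos
          omega
        simp [h3]
  obtain ⟨e, he0, hge, hfix⟩ := fixed_line hsep h1root
  have hge' : act (qOdd n F) g e = e := hge
  have hgN : g ^ (2 * s) = 1 := orderOf_dvd_iff_pow_eq_one.1 hg.dvd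
  have hQe : (qOdd n F) e ≠ 0 := fixed_aniso hQ g hNF hgN he0 hge' hfix
  have hpw : ∀ i : ℕ, act (qOdd n F) (g ^ i) e = e := fun i => by
    induction i with
    | zero => rw [pow_zero, act_one]
    | succ i ih => rw [pow_succ, act_mul, hge', ih]
  have ht : g ^ s = negOne (qOdd n F) * refl (qOdd n F) hQe := by
    refine ext_act fun v => ?_
    have h1 : M *ᵥ (act (qOdd n F) (g ^ s) v + v) = act (qOdd n F) (g ^ s) v + v := by
      have h := congrArg (fun A : Matrix _ _ F => A *ᵥ v) hG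
      simp only [map_mul, map_sub, map_add, map_pow, aeval_X, map_one, ← Matrix.mulVec_mulVec, Matrix.sub_mulVec,
        Matrix.add_mulVec, Matrix.one_mulVec, Matrix.zero_mulVec, sub_eq_zero] at h
      rw [← map_pow] at h
      exact h
    obtain ⟨c, hc⟩ := hfix _ h1
    have hgv : act (qOdd n F) (g ^ s) v = c • e - v := eq_sub_of_add_eq hc
    have hpe : pf (qOdd n F) e (act (qOdd n F) (g ^ s) v) = pf (qOdd n F) e v := by
      nth_rw 1 [← hpw s]
      exact pf_act _ _ _
    rw [hgv] at hpe ⊢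
    simp only [pf, QuadraticMap.polar_sub_right, QuadraticMap.polar_smul_right, smul_eq_mul] at hpe
    rw [show QuadraticMap.polar (⇑(qOdd n F)) e e = 2 * (qOdd n F) e from pf_self (qOdd n F) e] at hpe
    rw [act_mul, act_negOne, act_refl, neg_sub]
    congr 2
    rw [pf]
    field_simp
    exact mul_left_cancel₀ h2 (by linear_combination hpe)
  have hcrit := (negRefl_mem_omega_iff h2 hn hQe).1 (ht ▸ pow_mem hgO s)
  refine hcrit.trans (isSquare_fixed_iff h2 n hs2 ?_ (g ^ 2) ?_ (hpw 2) (fun v hv => ?_) hQe)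
  · rw [← hl, ← he]
    exact dvd_two_mul hη
  · rw [← pow_mul, hgN]
  · rw [pow_two, act_mul] at hv
    by_cases hu : act (qOdd n F) g v - v = 0
    · exact hfix v (sub_eq_zero.1 hu)
    · exfalso
      have h3 : M.charpoly.eval (-1) = 0 := by
        rw [eval_charpoly]
        refine Matrix.exists_mulVec_eq_zero_iff.1 ⟨act (qOdd n F) g v - v, hu, ?_⟩
        have h3 : M *ᵥ (act (qOdd n F) g v - v) = -(act (qOdd n F) g v - v) := by
          show act (qOdd n F) g (act (qOdd n F) g v - v) = _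
          rw [act_sub, hv, neg_sub]
        rw [Matrix.sub_mulVec, h3, sub_neg_eq_add, map_neg, map_one, Matrix.neg_mulVec, Matrix.one_mulVec,
          neg_add_cancel]
      have h4 : aeval (-1 : Ω) M.charpoly = 0 := by
        rw [show (-1 : Ω) = algebraMap F Ω (-1) by simp, aeval_algebraMap_apply_eq_algebraMap_eval, h3, map_zero]
      have h2Ω : (2 : Ω) ≠ 0 := by
        rw [show (2 : Ω) = algebraMap F Ω 2 by simp [map_ofNat], _root_.map_ne_zero]; exact h2
      rcases hroots _ h4 with h | h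
      · exact h2Ω (by linear_combination -h)
      · have := Nat.le_of_dvd two_pos (orderOf_dvd_of_pow_eq_one (neg_one_sq (R := Ω)))
        rw [h, hzs] at this
        have := hs.two_le
        omega

/-- Existence at two. -/
theorem two_exists (p s : ℕ) [Fact p.Prime] [CharP F p] [Fact s.Prime] (hs2 : s ≠ 2) (hsp : s ≠ p)
    (h2 : (2 : F) ≠ 0) (hn : 1 ≤ n) (hl : l = orderOf ((Fintype.card F : ℕ) : ZMod s))
    (hη : (Odd l ∧ η = l) ∨ (Even l ∧ 2 * η = l)) (he : η = n)
    (hc : ((Fintype.card F : ℕ) : ZMod 4) ^ n = 1 ↔ ((Fintype.card F : ℕ) : ZMod s) ^ n = 1) :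
    ∃ g ∈ Cfsg.Omega F (⇑(qOdd n F)), orderOf g = 2 * s := by
  classical
  have hs := (Fact.out : s.Prime)
  have hp := (Fact.out : p.Prime)
  have hQ := nondeg_qOdd' h2 n
  have hι := card_index_qOdd n
  have hps : p.Coprime s := (Nat.coprime_primes hp hs).2 hsp.symm
  have hl2 : l ∣ 2 * n := he ▸ dvd_two_mul hη
  have hdvd : s ∣ Nat.card (Cfsg.isometryGroup F (⇑(qOdd n F))) := by
    rw [Nat.card_congr (isoMat (qOdd n F) fun _ => rfl).toEquiv, ← Int.natCast_dvd_natCast, card_orth_qOdd h2]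
    refine Dvd.dvd.mul_left ?_ _
    refine Dvd.dvd.trans ?_ (Finset.dvd_prod_of_mem _ (Finset.mem_range.2 (show n - 1 < n by omega)))
    rw [← ZMod.intCast_zmod_eq_zero_iff_dvd, show n - 1 + 1 = n by omega]
    push_cast
    rw [Nat.card_eq_fintype_card, orderOf_dvd_iff_pow_eq_one.1 (hl ▸ hl2), sub_self]
  obtain ⟨x, hx⟩ := exists_prime_orderOf_dvd_card' s hdvd
  have hxO : x ∈ Cfsg.Omega F (⇑(qOdd n F)) := mem_omega_of_odd h2 hQ (by omega) x (hx ▸ hs.odd_of_ne_two hs2)
  set M := matHom _ x with hM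
  have hMs : M ^ s = 1 := orderOf_dvd_iff_pow_eq_one.1 ((orderOf_matHom x).trans hx).dvd
  have hsF : (s : F) ≠ 0 := fun h => by
    rw [CharP.cast_eq_zero_iff F p] at h
    exact hp.ne_one (hps.eq_one_of_dvd h)
  obtain ⟨z, hz, hzo⟩ : ∃ z : Ω, aeval z M.charpoly = 0 ∧ orderOf z = s := by
    by_contra! hno
    have h1 : M ^ 1 = 1 := pow_eq_one_of_roots hsF hMs fun z hz =>
      orderOf_dvd_iff_pow_eq_one.1 (((Nat.dvd_prime hs).1
        (orderOf_dvd_of_pow_eq_one (root_pow_eq_one hMs hz))).resolve_right (hno z hz)).dvd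
    rw [pow_one, hM] at h1
    have := (orderOf_matHom x).trans hx
    rw [h1, orderOf_one] at this
    exact hs.ne_one this.symm
  obtain ⟨hsep, h1root, -⟩ := roots_eq p s hs2 (invClosed_charpoly hQ x) hι
    (detHom_of_mem_omega h2 hQ (by omega) hxO) hl hη he.ge hps dvd_rfl hzo hz
  obtain ⟨e, he0, hxe, hfix⟩ := fixed_line hsep h1root
  have hxs : x ^ s = 1 := orderOf_dvd_iff_pow_eq_one.1 hx.dvd
  have hQe : (qOdd n F) e ≠ 0 := fixed_aniso hQ x hsF hxs he0 hxe hfix
  have htO : negOne (qOdd n F) * refl (qOdd n F) hQe ∈ Cfsg.Omega F (⇑(qOdd n F)) := (negRefl_mem_omega_iff h2 hn hQe).2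
    (hc.trans (isSquare_fixed_iff h2 n hs2 (hl ▸ hl2) x hxs hxe hfix hQe).symm)
  refine ⟨_, mul_mem htO hxO, ?_⟩
  rw [(negRefl_commute x hxe hQe).orderOf_mul_eq_mul_orderOf_of_coprime, negRefl_spec h2 (by omega) hQe, hx]
  rw [negRefl_spec h2 (by omega) hQe, hx]
  exact (Nat.coprime_primes Nat.prime_two hs).2 (Ne.symm hs2)

end CfsgLib.Singer.Orth
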