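import Cfsg.Agent.Lib.Singer.OrthTorus
import Cfsg.Agent.Lib.Singer.OrthInvolution

/-!
Elements of order `r * s` in `Ω(2n+1, q)`, `q` odd.
-/

set_option autoImplicit false
set_option linter.unusedSectionVars false

namespace CfsgLib.Singer.Orth

open Polynomial Matrix CfsgLib.OrthGen CfsgLib.Classes CfsgLib.Singer.Symp CfsgLib.ClassicalForms

universe u

variable {F : Type u} [Field F] [Fintype F]

theorem map_omega_le {ι κ : Type} [Fintype ι] [DecidableEq ι] [Fintype κ] [DecidableEq κ]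
    {Q : QuadraticForm F (ι → F)} {Q' : QuadraticForm F (κ → F)}
    (φ : Cfsg.isometryGroup F (⇑Q) →* Cfsg.isometryGroup F (⇑Q')) {g : Cfsg.isometryGroup F (⇑Q)}
    (hg : g ∈ Cfsg.Omega F (⇑Q)) : φ g ∈ Cfsg.Omega F (⇑Q') := by
  have hle : (commutator (Cfsg.isometryGroup F (⇑Q))).map φ ≤ commutator (Cfsg.isometryGroup F (⇑Q')) := by
    rw [commutator_def, Subgroup.map_commutator]
    exact Subgroup.commutator_mono le_top le_top
  exact hle (Subgroup.mem_map_of_mem φ hg)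

theorem sumHom_injective {α β : Type} [Fintype α] [DecidableEq α] [Fintype β] [DecidableEq β]
    (Q₁ : QuadraticForm F (α → F)) (Q₂ : QuadraticForm F (β → F)) : Function.Injective (sumHom Q₁ Q₂) := by
  rintro ⟨g, h⟩ ⟨g', h'⟩ heq
  have h1 : ((sumHom Q₁ Q₂ (g, h) : GL (α ⊕ β) F) : Matrix (α ⊕ β) (α ⊕ β) F) =
      ((sumHom Q₁ Q₂ (g', h') : GL (α ⊕ β) F) : Matrix (α ⊕ β) (α ⊕ β) F) := by rw [heq]
  rw [coe_sumHom, coe_sumHom, Matrix.fromBlocks_inj] at h1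
  exact Prod.ext (Subtype.ext (Units.ext h1.1)) (Subtype.ext (Units.ext h1.2.2.2))

/-- Gluing elements of two orthogonal summands. -/
theorem combine (h2 : (2 : F) ≠ 0) {α : Type} [Fintype α] [DecidableEq α] {Qt : QuadraticForm F (α → F)}
    (hQt : (QuadraticMap.polarBilin Qt).Nondegenerate) {d m n : ℕ} (hα : Fintype.card α = 2 * d) (hdm : d + m = n)
    {g : Cfsg.isometryGroup F (⇑Qt)} (hg : g ∈ Cfsg.Omega F (⇑Qt))
    {h : Cfsg.isometryGroup F (⇑(qOdd m F))} (hh : h ∈ Cfsg.Omega F (⇑(qOdd m F)))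
    (hco : (orderOf g).Coprime (orderOf h)) :
    ∃ x ∈ Cfsg.Omega F (⇑(qOdd n F)), orderOf x = orderOf g * orderOf h := by
  obtain ⟨φ, hφ, -⟩ := exists_hom_qOdd h2 (n := n)
    (by rw [Fintype.card_sum, hα, card_index_qOdd]; omega) (qSum Qt (qOdd m F))
    (qSum_nondegenerate hQt (nondeg_qOdd' h2 m))
  refine ⟨φ (sumHom Qt (qOdd m F) (g, h)), map_omega_le φ ?_, ?_⟩
  · have h1 := map_omega_le ((sumHom Qt (qOdd m F)).comp (MonoidHom.inl _ _)) hg
    have h3 := map_omega_le ((sumHom Qt (qOdd m F)).comp (MonoidHom.inr _ _)) hh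
    simp only [MonoidHom.comp_apply, MonoidHom.inl_apply, MonoidHom.inr_apply] at h1 h3
    have := mul_mem h1 h3
    rwa [← map_mul, Prod.mk_mul_mk, mul_one, one_mul] at this
  · rw [orderOf_injective φ hφ, orderOf_injective _ (sumHom_injective _ _), Prod.orderOf_mk, hco.lcm_eq_mul]

theorem signed_orders {N η l : ℕ} [Fact N.Prime] (hl : l = orderOf ((Fintype.card F : ℕ) : ZMod N)) (h0 : 0 < η)
    (hη : (Odd l ∧ η = l) ∨ (Even l ∧ 2 * η = l)) :
    (orderOf ((Fintype.card F : ℕ) : ZMod N) = 2 * η ∧ ((Fintype.card F : ℕ) : ZMod N) ^ η = -1) ∨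
      orderOf ((Fintype.card F : ℕ) : ZMod N) = η := by
  rcases hη with ⟨-, e⟩ | ⟨-, e⟩
  · exact Or.inr (by omega)
  · exact Or.inl ⟨by omega, Symp.pow_eq_neg_one (by omega) h0⟩

theorem eta_pos (p : ℕ) [Fact p.Prime] [CharP F p] {N η l : ℕ} (hN : p.Coprime N) [NeZero N]
    (hl : l = orderOf ((Fintype.card F : ℕ) : ZMod N))
    (hη : (Odd l ∧ η = l) ∨ (Even l ∧ 2 * η = l)) : 0 < η := by
  obtain ⟨u, hu⟩ := exists_unit (F := F) p hN
  have : 0 < l := by rw [hl, ← hu, orderOf_units]; exact orderOf_pos u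
  rcases hη with ⟨-, e⟩ | ⟨-, e⟩ <;> omega

/-- An element of odd order `N` in a space of dimension `2d`, glued to an element of a complement. -/
theorem torus_combine (p : ℕ) [Fact p.Prime] [CharP F p] (h2 : (2 : F) ≠ 0) {N d m n : ℕ} (hN : p.Coprime N)
    (h2N : 2 < N) (hodd : Odd N) (hd0 : 0 < d)
    (hd : (orderOf ((Fintype.card F : ℕ) : ZMod N) = 2 * d ∧ ((Fintype.card F : ℕ) : ZMod N) ^ d = -1) ∨
      orderOf ((Fintype.card F : ℕ) : ZMod N) = d)
    (hdm : d + m = n) {h : Cfsg.isometryGroup F (⇑(qOdd m F))} (hh : h ∈ Cfsg.Omega F (⇑(qOdd m F)))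
    (hco : N.Coprime (orderOf h)) :
    ∃ x ∈ Cfsg.Omega F (⇑(qOdd n F)), orderOf x = N * orderOf h := by
  obtain ⟨Qt, g, hQt, hg⟩ := exists_torus p h2 hN h2N hd
  have := combine h2 hQt (by simp) hdm (mem_omega_of_odd h2 hQt (by simp; omega) g (hg ▸ hodd)) hh
    (by rwa [hg])
  rwa [hg] at this

/-- An element of order `p` in `Ω(2m+1)`. -/
theorem exists_p (p : ℕ) [Fact p.Prime] [CharP F p] (hp2 : p ≠ 2) (h2 : (2 : F) ≠ 0) {m : ℕ} (hm : 1 ≤ m) :
    ∃ h ∈ Cfsg.Omega F (⇑(qOdd m F)), orderOf h = p := by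
  have hdvd : p ∣ Nat.card (Cfsg.isometryGroup F (⇑(qOdd m F))) := by
    rw [Nat.card_congr (isoMat (qOdd m F) fun _ => rfl).toEquiv, ← Int.natCast_dvd_natCast, card_orth_qOdd h2]
    refine Dvd.dvd.mul_right (Dvd.dvd.mul_left ?_ _) _
    obtain ⟨f, hf, hq⟩ := FiniteField.card F p
    rw [Nat.card_eq_fintype_card, hq]
    push_cast
    rw [← pow_mul]
    exact dvd_pow_self _ (Nat.mul_ne_zero f.ne_zero (pow_ne_zero _ (by omega)))
  obtain ⟨h, hh⟩ := exists_prime_orderOf_dvd_card' p hdvd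
  exact ⟨h, mem_omega_of_odd h2 (nondeg_qOdd' h2 m) (by rw [card_index_qOdd]; omega) h
    (hh ▸ (Fact.out : p.Prime).odd_of_ne_two hp2), hh⟩

/-- An involution in `Ω` from two orthogonal vectors of value one. -/
theorem two_refl {ι : Type} [Fintype ι] [DecidableEq ι] {Q : QuadraticForm F (ι → F)} (h2 : (2 : F) ≠ 0)
    (hQ : (QuadraticMap.polarBilin Q).Nondegenerate) (hn : 2 ≤ Fintype.card ι) {a b : ι → F} (ha : Q a = 1)
    (hb : Q b = 1) (hab : pf Q a b = 0) : ∃ t ∈ Cfsg.Omega F (⇑Q), orderOf t = 2 := by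
  have ha0 : Q a ≠ 0 := by rw [ha]; exact one_ne_zero
  have hb0 : Q b ≠ 0 := by rw [hb]; exact one_ne_zero
  refine ⟨OrthGen.refl Q ha0 * OrthGen.refl Q hb0,
    (prod_refl_mem_omega_iff h2 hQ hn _ [a, b] (by simp [ha0, hb0]) (by simp; rfl)).2 (by simp [ha, hb]),
    orderOf_eq_prime ?_ fun h => ?_⟩
  · have hc : OrthGen.refl Q ha0 * OrthGen.refl Q hb0 = OrthGen.refl Q hb0 * OrthGen.refl Q ha0 := by
      have h1 := OrthGen.conj_refl Q (OrthGen.refl Q hb0) ha0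
      simp only [act_refl_of_orth Q hb0 ((pf_comm Q b a).trans hab)] at h1
      exact (mul_inv_eq_iff_eq_mul.1 h1).symm
    rw [pow_two, mul_assoc, ← mul_assoc (OrthGen.refl Q hb0), ← hc, mul_assoc, OrthGen.refl_mul_self, mul_one,
      OrthGen.refl_mul_self]
  · have h1 := congrArg (fun g => act Q g a) h
    simp only [act_mul, act_one, act_refl_of_orth Q hb0 ((pf_comm Q b a).trans hab), act_refl_self] at h1
    have h3 : (2 : F) • a = 0 := by rw [two_smul]; nth_rw 1 [← h1]; rw [neg_add_cancel]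
    exact ha0 (by rw [(smul_eq_zero.mp h3).resolve_left h2, QuadraticMap.map_zero])

theorem two_refl_qOdd (h2 : (2 : F) ≠ 0) {m : ℕ} (hm : 1 ≤ m) :
    ∃ t ∈ Cfsg.Omega F (⇑(qOdd m F)), orderOf t = 2 := by
  let i : Fin m := ⟨0, hm⟩
  refine two_refl h2 (nondeg_qOdd' h2 m) (by rw [card_index_qOdd]; omega)
    (a := Pi.single (.inr (.inl i)) 1 + Pi.single (.inr (.inr i)) 1) (b := Pi.single (.inl ()) 1) ?_ ?_ ?_
  · simp [qOdd_apply, Cfsg.quadFormOdd, Pi.single_apply]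
  · simp [qOdd_apply, Cfsg.quadFormOdd, Pi.single_apply]
  · simp [pf, QuadraticMap.polar, qOdd_apply, Cfsg.quadFormOdd, Pi.single_apply]

theorem two_p_exists (p : ℕ) [Fact p.Prime] [CharP F p] (hp2 : p ≠ 2) (h2 : (2 : F) ≠ 0) {n : ℕ} (hn : 3 ≤ n) :
    ∃ x ∈ Cfsg.Omega F (⇑(qOdd n F)), orderOf x = 2 * p := by
  obtain ⟨h, hh, hho⟩ := exists_p (F := F) p hp2 h2 (m := 1) le_rfl
  have hQ : (QuadraticMap.polarBilin (qPlus (n - 1) F)).Nondegenerate :=
    nondeg_iff_polarBilin.2 (nondeg_qPlus (n - 1))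
  let i : Fin (n - 1) := ⟨0, by omega⟩
  let j : Fin (n - 1) := ⟨1, by omega⟩
  have hij : i ≠ j := by simp [i, j, Fin.ext_iff]
  obtain ⟨t, ht, hto⟩ := two_refl h2 hQ (by simp; omega)
    (a := Pi.single (.inl i) 1 + Pi.single (.inr i) 1) (b := Pi.single (.inl j) 1 + Pi.single (.inr j) 1)
    (by simp [qPlus_apply, Cfsg.quadFormPlus, Pi.single_apply])
    (by simp [qPlus_apply, Cfsg.quadFormPlus, Pi.single_apply])
    (by simp [pf, QuadraticMap.polar, qPlus_apply, Cfsg.quadFormPlus, Pi.single_apply, add_mul, mul_add,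
      Finset.sum_add_distrib, hij, hij.symm])
  have := combine h2 hQ (d := n - 1) (by simp; omega) (show n - 1 + 1 = n by omega) ht hh
    (by rw [hto, hho]; exact (Nat.coprime_primes Nat.prime_two Fact.out).2 (Ne.symm hp2))
  rwa [hto, hho] at this

theorem p_exists (p s : ℕ) [Fact p.Prime] [CharP F p] [Fact s.Prime] (hp2 : p ≠ 2) (hs2 : s ≠ 2) (hsp : s ≠ p)
    (h2 : (2 : F) ≠ 0) {n l η : ℕ} (hl : l = orderOf ((Fintype.card F : ℕ) : ZMod s))
    (hη : (Odd l ∧ η = l) ∨ (Even l ∧ 2 * η = l)) (hlt : η < n) :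
    ∃ x ∈ Cfsg.Omega F (⇑(qOdd n F)), orderOf x = s * p := by
  have hs := (Fact.out : s.Prime)
  have hps : p.Coprime s := (Nat.coprime_primes Fact.out hs).2 hsp.symm
  have : NeZero s := ⟨hs.ne_zero⟩
  have h0 : 0 < η := eta_pos (F := F) p hps hl hη
  obtain ⟨h, hh, hho⟩ := exists_p (F := F) p hp2 h2 (m := n - η) (by omega)
  have := torus_combine p h2 hps (lt_of_le_of_ne hs.two_le (Ne.symm hs2)) (hs.odd_of_ne_two hs2) h0
    (signed_orders hl h0 hη) (show η + (n - η) = n by omega) hh (hho ▸ hps.symm)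
  rwa [hho] at this

theorem two_exists_of_lt (p s : ℕ) [Fact p.Prime] [CharP F p] [Fact s.Prime] (hs2 : s ≠ 2) (hsp : s ≠ p)
    (h2 : (2 : F) ≠ 0) {n l η : ℕ} (hl : l = orderOf ((Fintype.card F : ℕ) : ZMod s))
    (hη : (Odd l ∧ η = l) ∨ (Even l ∧ 2 * η = l)) (hlt : η < n) :
    ∃ x ∈ Cfsg.Omega F (⇑(qOdd n F)), orderOf x = 2 * s := by
  have hs := (Fact.out : s.Prime)
  have hps : p.Coprime s := (Nat.coprime_primes Fact.out hs).2 hsp.symm
  have : NeZero s := ⟨hs.ne_zero⟩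
  have h0 : 0 < η := eta_pos (F := F) p hps hl hη
  obtain ⟨h, hh, hho⟩ := two_refl_qOdd (F := F) h2 (m := n - η) (by omega)
  have := torus_combine p h2 hps (lt_of_le_of_ne hs.two_le (Ne.symm hs2)) (hs.odd_of_ne_two hs2) h0
    (signed_orders hl h0 hη) (show η + (n - η) = n by omega) hh
    (hho ▸ (Nat.coprime_primes hs Nat.prime_two).2 hs2)
  rwa [hho, mul_comm] at this

/-- The criterion for two odd primes. -/
theorem odd_adjacent_iff (p r s : ℕ) [Fact p.Prime] [CharP F p] [Fact r.Prime] [Fact s.Prime]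
    (hr2 : r ≠ 2) (hs2 : s ≠ 2) (hrp : r ≠ p) (hsp : s ≠ p) (hrs : r ≠ s) (h2 : (2 : F) ≠ 0) {n : ℕ}
    {k l ηk ηl : ℕ} (hk : k = orderOf ((Fintype.card F : ℕ) : ZMod r))
    (hl : l = orderOf ((Fintype.card F : ℕ) : ZMod s))
    (hηk : (Odd k ∧ ηk = k) ∨ (Even k ∧ 2 * ηk = k)) (hηl : (Odd l ∧ ηl = l) ∨ (Even l ∧ 2 * ηl = l))
    (hkl : ηk ≤ ηl) :
    (∃ x ∈ Cfsg.Omega F (⇑(qOdd n F)), orderOf x = r * s) ↔
      ηl ≤ n ∧ (ηk + ηl ≤ n ∨ ∃ t, Odd t ∧ l = k * t) := by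
  have hr := (Fact.out : r.Prime)
  have hs := (Fact.out : s.Prime)
  have hp := (Fact.out : p.Prime)
  have hr3 : 2 < r := lt_of_le_of_ne hr.two_le (Ne.symm hr2)
  have hs3 : 2 < s := lt_of_le_of_ne hs.two_le (Ne.symm hs2)
  have hpr : p.Coprime r := (Nat.coprime_primes hp hr).2 hrp.symm
  have hps : p.Coprime s := (Nat.coprime_primes hp hs).2 hsp.symm
  have hrs' : r.Coprime s := (Nat.coprime_primes hr hs).2 hrs
  have : NeZero r := ⟨hr.ne_zero⟩
  have : NeZero s := ⟨hs.ne_zero⟩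
  have hk0 : 0 < ηk := eta_pos (F := F) p hpr hk hηk
  have hl0 : 0 < ηl := eta_pos (F := F) p hps hl hηl
  constructor
  · rintro ⟨g, -, hg⟩
    exact oddQuot_or_add_le p r s hr2 hs2 hrp hsp hrs hk hl hηk hηl hkl (matHom _ g)
      (invClosed_charpoly (nondeg_qOdd' h2 n) g) (card_index_qOdd n).le ((orderOf_matHom g).trans hg)
  rintro ⟨hln, h | ⟨t, ht, hlt⟩⟩
  · obtain ⟨h₁, hh₁, ho₁⟩ := torus_combine p h2 hps hs3 (hs.odd_of_ne_two hs2) hl0 (signed_orders hl hl0 hηl)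
      (show ηl + (n - ηk - ηl) = n - ηk by omega) (one_mem (Cfsg.Omega F (⇑(qOdd (n - ηk - ηl) F))))
      (by rw [orderOf_one]; exact Nat.coprime_one_right s)
    rw [orderOf_one, mul_one] at ho₁
    have := torus_combine p h2 hpr hr3 (hr.odd_of_ne_two hr2) hk0 (signed_orders hk hk0 hηk)
      (show ηk + (n - ηk) = n by omega) hh₁ (ho₁ ▸ hrs')
    rwa [ho₁] at this
  · have := torus_combine p h2 (hpr.mul_right hps) (lt_of_lt_of_le hr3 (Nat.le_mul_of_pos_right r hs.pos))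
      ((hr.odd_of_ne_two hr2).mul (hs.odd_of_ne_two hs2)) hl0
      (quot_orders hr2 hs2 hrs hk hl hηk hηl ht hlt hl0)
      (show ηl + (n - ηl) = n by omega) (one_mem (Cfsg.Omega F (⇑(qOdd (n - ηl) F))))
      (by rw [orderOf_one]; exact Nat.coprime_one_right _)
    rwa [orderOf_one, mul_one] at this

end CfsgLib.Singer.Orth
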