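import Cfsg.Agent.Lib.Singer.OrthBasic
import Cfsg.Agent.Lib.Classes.OrthSum
import Cfsg.Agent.Lib.ReflectionsSpinor.POmegaTypes

/-!
Cyclic tori of orthogonal groups over finite fields of odd order, and the passage from an arbitrary space of odd
dimension to the standard one.
-/

set_option autoImplicit false
set_option linter.unusedSectionVars false

namespace CfsgLib.Singer.Orth

open Polynomial QuadraticMap CfsgLib.OrthGen CfsgLib.Classes IntermediateField

universe u

variable {F : Type u} [Field F] [Fintype F]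

local notation "Ω" => AlgebraicClosure F

/-- A space with an isometry, in coordinates. -/
theorem to_coords {V : Type u} [AddCommGroup V] [Module F V] [FiniteDimensional F V] (Q : QuadraticForm F V)
    (hQ : (polarBilin Q).Nondegenerate) {D : ℕ} (hD : Module.finrank F V = D) (u : V ≃ₗ[F] V)
    (hu : ∀ x, Q (u x) = Q x) :
    ∃ (Qt : QuadraticForm F (Fin D → F)) (g : Cfsg.isometryGroup F (⇑Qt)),
      (polarBilin Qt).Nondegenerate ∧ orderOf g = orderOf u := by
  let E := (Module.finBasisOfFinrankEq F V hD).equivFun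
  let Qt : QuadraticForm F (Fin D → F) := Q.comp E.symm.toLinearMap
  let g : Cfsg.isometryGroup F (⇑Qt) := isoOfEquiv ((E.symm.trans u).trans E) fun v => by
    simp only [Qt, QuadraticMap.comp_apply, LinearEquiv.coe_coe, LinearEquiv.trans_apply, E.symm_apply_apply, hu]
  refine ⟨Qt, g, nondegenerate_polarBilin _ fun x hx => ?_, orderOf_eq_orderOf_iff.2 fun k => ?_⟩
  · refine E.symm.injective ((hQ.1 (E.symm x) fun y => ?_).trans (map_zero _).symm)
    obtain ⟨y, rfl⟩ := E.symm.surjective y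
    simpa [Qt, polar, QuadraticMap.comp_apply] using hx y
  · have hit : ∀ (j : ℕ) (x : Fin D → F), act Qt (g ^ j) x = E ((u ^ j) (E.symm x)) := by
      intro j
      induction j with
      | zero => intro x; simp [act_one]
      | succ j ih =>
        intro x
        rw [pow_succ, act_mul, ih, show act Qt g x = E (u (E.symm x)) from act_isoOfEquiv _ _ x, pow_succ]
        simp
    constructor
    · intro h
      refine LinearEquiv.ext fun v => E.injective ?_
      have := hit k (E v)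
      rw [h, act_one, E.symm_apply_apply] at this
      exact this.symm
    · intro h
      refine ext_act fun x => ?_
      rw [hit, h, act_one]
      exact E.apply_symm_apply x

/-- An element of order `N` in the orthogonal group of a space of dimension `2d`. -/
theorem exists_torus (p : ℕ) [Fact p.Prime] [CharP F p] (h2 : (2 : F) ≠ 0) {N d : ℕ} (hN : p.Coprime N)
    (h2N : 2 < N)
    (hd : (orderOf ((Fintype.card F : ℕ) : ZMod N) = 2 * d ∧ ((Fintype.card F : ℕ) : ZMod N) ^ d = -1) ∨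
      orderOf ((Fintype.card F : ℕ) : ZMod N) = d) :
    ∃ (Qt : QuadraticForm F (Fin (2 * d) → F)) (g : Cfsg.isometryGroup F (⇑Qt)),
      (polarBilin Qt).Nondegenerate ∧ orderOf g = N := by
  classical
  obtain ⟨f, -, hq⟩ := FiniteField.card F p
  have hp := (Fact.out : p.Prime)
  have hNF : (N : F) ≠ 0 := fun h => by
    rw [CharP.cast_eq_zero_iff F p] at h
    exact hp.ne_one (hN.eq_one_of_dvd h)
  have : NeZero N := ⟨by omega⟩
  have : NeZero (N : Ω) := ⟨by rwa [← map_natCast (algebraMap F Ω), _root_.map_ne_zero]⟩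
  obtain ⟨ζ, hζ⟩ := HasEnoughRootsOfUnity.exists_primitiveRoot Ω N
  have hint : IsIntegral F ζ := Algebra.IsIntegral.isIntegral ζ
  haveI : FiniteDimensional F F⟮ζ⟯ := IntermediateField.adjoin.finiteDimensional hint
  haveI : Finite F⟮ζ⟯ := Module.finite_of_finite F
  have hcyc : minpoly F ζ ∣ cyclotomic N F := minpoly.dvd F ζ <| by
    rw [aeval_def, ← eval_map, map_cyclotomic]
    exact (isRoot_cyclotomic_iff.2 hζ).eq_zero
  have hdim : Module.finrank F F⟮ζ⟯ = orderOf ((Fintype.card F : ℕ) : ZMod N) := by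
    rw [IntermediateField.adjoin.finrank hint, natDegree_of_dvd_cyclotomic_of_irreducible (p := p) (f := f) hq hN
      hcyc (minpoly.irreducible hint), ← orderOf_units, ZMod.coe_unitOfCoprime, hq]
  set e : F⟮ζ⟯ := ⟨ζ, IntermediateField.mem_adjoin_simple_self F ζ⟩ with hedef
  have heord : orderOf e = N := by
    rw [hζ.eq_orderOf]
    exact (orderOf_injective (algebraMap F⟮ζ⟯ Ω).toMonoidHom (algebraMap F⟮ζ⟯ Ω).injective e).symm
  have he0 : e ≠ 0 := fun h => by rw [h, orderOf_zero] at heord; omega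
  set eu : F⟮ζ⟯ˣ := Units.mk0 e he0 with heu
  have heuo : orderOf eu = N := by rw [← orderOf_units, heu, Units.val_mk0, heord]
  have hnd := traceForm_nondegenerate F F⟮ζ⟯
  rcases hd with ⟨hd2, hneg⟩ | hd1
  · let φ : F⟮ζ⟯ →ₐ[F] F⟮ζ⟯ := FiniteField.frobeniusAlgHom F F⟮ζ⟯
    have hφ : ∀ (j : ℕ) (x : F⟮ζ⟯), (φ ^ j) x = x ^ Fintype.card F ^ j := fun j x => by
      rw [AlgHom.coe_pow, show ⇑φ = (· ^ Fintype.card F) from FiniteField.coe_frobeniusAlgHom F F⟮ζ⟯, pow_iterate]
    have hφi : φ ^ (2 * d) = 1 := by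
      rw [← hd2, ← hdim, ← FiniteField.orderOf_frobeniusAlgHom F F⟮ζ⟯, pow_orderOf_eq_one]
    let σ : F⟮ζ⟯ →ₐ[F] F⟮ζ⟯ := φ ^ d
    have hσσ : ∀ x, σ (σ x) = x := fun x => by
      show (φ ^ d) ((φ ^ d) x) = x
      rw [← AlgHom.mul_apply, ← pow_add, ← two_mul, hφi, AlgHom.one_apply]
    have hσe : e * σ e = 1 := by
      show e * (φ ^ d) e = 1
      rw [hφ, ← pow_succ', ← orderOf_dvd_iff_pow_eq_one, heord, ← ZMod.natCast_eq_zero_iff, Nat.cast_add,
        Nat.cast_pow, Nat.cast_one, hneg, neg_add_cancel]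
    let β : LinearMap.BilinForm F F⟮ζ⟯ := (Algebra.traceForm F F⟮ζ⟯).compl₁₂ LinearMap.id σ.toLinearMap
    have hβ : ∀ x y, β x y = Algebra.trace F F⟮ζ⟯ (x * σ y) := fun x y => rfl
    let σe : F⟮ζ⟯ ≃ₐ[F] F⟮ζ⟯ := AlgEquiv.ofBijective σ (Algebra.IsAlgebraic.algHom_bijective σ)
    have hpol : ∀ x y, polar (β.toQuadraticMap) x y = 2 * Algebra.trace F F⟮ζ⟯ (x * σ y) := fun x y => by
      rw [LinearMap.BilinMap.polar_toQuadraticMap, hβ, hβ, ← Algebra.trace_eq_of_algEquiv σe (y * σ x)]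
      show _ + Algebra.trace F F⟮ζ⟯ (σ (y * σ x)) = _
      rw [map_mul σ y (σ x), hσσ, mul_comm (σ y) x, two_mul]
    obtain ⟨Qt, g, hQt, hg⟩ := to_coords β.toQuadraticMap (D := 2 * d)
      (nondegenerate_polarBilin _ fun x h => hnd.1 x fun y => by
        have h1 := h (σ y)
        rw [hpol, hσσ] at h1
        exact (mul_eq_zero.1 h1).resolve_left h2)
      (hdim.trans hd2) (DistribMulAction.toModuleAut F F⟮ζ⟯ eu) (fun x => by
        show β (e * x) (e * x) = β x x
        rw [hβ, hβ]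
        congr 1
        rw [map_mul σ e x]
        linear_combination (x * σ x) * hσe)
    refine ⟨Qt, g, hQt, hg.trans ?_⟩
    rw [orderOf_injective (DistribMulAction.toModuleAut F F⟮ζ⟯) (fun a b hab => Units.ext ?_) eu, heuo]
    have h1 := LinearEquiv.congr_fun hab 1
    simpa [Units.smul_def] using h1
  · let β : LinearMap.BilinForm F (F⟮ζ⟯ × F⟮ζ⟯) :=
      (Algebra.traceForm F F⟮ζ⟯).compl₁₂ (LinearMap.fst F F⟮ζ⟯ F⟮ζ⟯) (LinearMap.snd F F⟮ζ⟯ F⟮ζ⟯)
    have hβ : ∀ v w, β v w = Algebra.trace F F⟮ζ⟯ (v.1 * w.2) := fun v w => rfl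
    let m : F⟮ζ⟯ˣ →* ((F⟮ζ⟯ × F⟮ζ⟯) ≃ₗ[F] (F⟮ζ⟯ × F⟮ζ⟯)) :=
      { toFun := fun a => (DistribMulAction.toModuleAut F F⟮ζ⟯ a).prodCongr
          (DistribMulAction.toModuleAut F F⟮ζ⟯ a⁻¹)
        map_one' := LinearEquiv.ext fun v => by simp
        map_mul' := fun a b => LinearEquiv.ext fun v => by
          simp [Units.smul_def, mul_assoc, mul_left_comm] }
    obtain ⟨Qt, g, hQt, hg⟩ := to_coords β.toQuadraticMap (D := 2 * d)
      (nondegenerate_polarBilin _ fun x h => Prod.ext (hnd.1 _ fun y => by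
          have h1 := h (0, y)
          rw [LinearMap.BilinMap.polar_toQuadraticMap, hβ, hβ, zero_mul, map_zero, add_zero] at h1
          exact h1) (hnd.1 _ fun y => by
          have h1 := h (y, 0)
          rw [LinearMap.BilinMap.polar_toQuadraticMap, hβ, hβ, mul_zero, map_zero, zero_add, mul_comm] at h1
          exact h1))
      (by rw [Module.finrank_prod, hdim, hd1, two_mul]) (m eu) (fun x => by
        show β ((e * x.1), ((eu⁻¹ : F⟮ζ⟯ˣ) : F⟮ζ⟯) * x.2) ((e * x.1), ((eu⁻¹ : F⟮ζ⟯ˣ) : F⟮ζ⟯) * x.2) = β x x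
        rw [hβ, hβ]
        congr 1
        rw [mul_mul_mul_comm, ← show (eu : F⟮ζ⟯) = e from rfl, Units.mul_inv, one_mul])
    refine ⟨Qt, g, hQt, hg.trans ?_⟩
    rw [orderOf_injective m (fun a b hab => Units.ext ?_) eu, heuo]
    have h1 := congrArg Prod.fst (LinearEquiv.congr_fun hab (1, 0))
    simpa [m, Units.smul_def] using h1

/-- Any space of dimension `2n+1` has an isometry group inside the standard one. -/
theorem exists_hom_qOdd (h2 : (2 : F) ≠ 0) {κ : Type} [Fintype κ] [DecidableEq κ] {n : ℕ}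
    (hκ : Fintype.card κ = 2 * n + 1) (Q : QuadraticForm F (κ → F)) (hQ : (polarBilin Q).Nondegenerate) :
    ∃ φ : Cfsg.isometryGroup F (⇑Q) →* Cfsg.isometryGroup F (⇑(CfsgLib.ClassicalForms.qOdd n F)),
      Function.Injective φ ∧ ∀ g ∈ Cfsg.Omega F (⇑Q), φ g ∈ Cfsg.Omega F (⇑(CfsgLib.ClassicalForms.qOdd n F)) := by
  obtain ⟨L, d, hd, hL⟩ := CfsgLib.ReflectionsSpinor.POmegaField.classify_odd hκ Q hQ
  simp only [CfsgLib.ReflectionsSpinor.POmegaField.qO_eq] at hL
  let a : Cfsg.isometryGroup F (⇑Q) → ((Unit ⊕ (Fin n ⊕ Fin n)) → F) ≃ₗ[F] ((Unit ⊕ (Fin n ⊕ Fin n)) → F) :=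
    fun g => (L.trans
      ({ toFun := act Q g
         map_add' := act_add g
         map_smul' := act_smul g
         invFun := act Q g⁻¹
         left_inv := act_inv_act g
         right_inv := act_act_inv g } : (κ → F) ≃ₗ[F] (κ → F))).trans L.symm
  have ha : ∀ g v, L (a g v) = act Q g (L v) := fun g v => L.apply_symm_apply _
  have hiso : ∀ g v, CfsgLib.ClassicalForms.qOdd n F (a g v) = CfsgLib.ClassicalForms.qOdd n F v := fun g v =>
    mul_left_cancel₀ hd (by rw [← hL, ← hL, ha, Q_act])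
  let φ : Cfsg.isometryGroup F (⇑Q) →* Cfsg.isometryGroup F (⇑(CfsgLib.ClassicalForms.qOdd n F)) :=
    MonoidHom.mk' (fun g => isoOfEquiv (a g) (hiso g)) fun g h => ext_act fun v => by
      rw [act_mul, act_isoOfEquiv, act_isoOfEquiv, act_isoOfEquiv]
      refine L.injective ?_
      rw [ha, ha, ha, act_mul]
  have hφ : ∀ g v, L (act _ (φ g) v) = act Q g (L v) := fun g v => by
    rw [show act _ (φ g) v = a g v from act_isoOfEquiv (a g) (hiso g) v, ha]
  refine ⟨φ, fun g h hgh => ext_act fun v => ?_, fun g hg => ?_⟩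
  · obtain ⟨v, rfl⟩ := L.surjective v
    rw [← hφ, ← hφ, hgh]
  · have hle : (commutator (Cfsg.isometryGroup F (⇑Q))).map φ ≤
        commutator (Cfsg.isometryGroup F (⇑(CfsgLib.ClassicalForms.qOdd n F))) := by
      rw [commutator_def, Subgroup.map_commutator]
      exact Subgroup.commutator_mono le_top le_top
    exact hle (Subgroup.mem_map_of_mem φ hg)

end CfsgLib.Singer.Orth
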