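import Cfsg.Agent.Lib.Singer.PrimeGraphSymp
import Cfsg.Agent.Lib.SympPrimeAdj.Main
import Cfsg.Agent.Lib.ClassicalLinear.SympBasic

/-!
Elements of order `2 * p` and `2 * s` in `PSp(2n, q)`, `q` odd.
-/

set_option autoImplicit false
set_option linter.unusedSectionVars false

namespace CfsgLib.Singer.Symp

open Polynomial Matrix

variable {F : Type*} [Field F] [Fintype F] {n : ℕ}

local notation "Ω" => AlgebraicClosure F
set_option quotPrecheck false in
local notation "Sp" => ↥(Matrix.symplecticGroup (Fin n) F)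

/-- A lift of an element of order `a * b` of the projective group. -/
theorem orderOf_mk_eq {H : Type*} [Group H] (Z : Subgroup H) [Z.Normal] {a b : ℕ} (ha : a.Prime) (hb : b.Prime)
    {g : H} (h : g ^ (a * b) ∈ Z) (hna : g ^ a ∉ Z) (hnb : g ^ b ∉ Z) :
    orderOf (QuotientGroup.mk g : H ⧸ Z) = a * b := by
  have hd : orderOf (QuotientGroup.mk g : H ⧸ Z) ∣ a * b := orderOf_dvd_of_pow_eq_one (by
    rw [← QuotientGroup.mk_pow, QuotientGroup.eq_one_iff]; exact h)
  have key : ∀ c, g ^ c ∉ Z → ¬ orderOf (QuotientGroup.mk g : H ⧸ Z) ∣ c := fun c hc hd' => hc (by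
    rw [← QuotientGroup.eq_one_iff, QuotientGroup.mk_pow, ← orderOf_dvd_iff_pow_eq_one]; exact hd')
  obtain ⟨x, y, hx, hy, hxy⟩ := Nat.dvd_mul.1 hd
  rcases (Nat.dvd_prime ha).1 hx with rfl | rfl
  · exact absurd (by rw [← hxy, one_mul]; exact hy) (key b hnb)
  rcases (Nat.dvd_prime hb).1 hy with rfl | rfl
  · exact absurd (by rw [← hxy, mul_one]) (key x hna)
  exact hxy.symm

theorem mem_center_iff' (hn : 1 ≤ n) {g : Sp} :
    g ∈ Subgroup.center Sp ↔
      ((g.1 : Matrix (Fin n ⊕ Fin n) (Fin n ⊕ Fin n) F) = 1 ∨ g.1 = -1) :=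
  CfsgLib.ClassicalLinear.mem_center_sp_iff hn

theorem two_p_mem (p : ℕ) [Fact p.Prime] [CharP F p] (hp2 : p ≠ 2) (hn : 2 ≤ n) :
    2 * p ∈ Set.range (orderOf : Cfsg.PSp n F → ℕ) := by
  classical
  have hp := (Fact.out : p.Prime)
  have h2 : (2 : F) ≠ 0 := fun h => hp2 ((Nat.prime_dvd_prime_iff_eq hp Nat.prime_two).1
    ((CharP.cast_eq_zero_iff F p 2).1 (by exact_mod_cast h)))
  let i : Fin n := ⟨0, by omega⟩
  let j : Fin n := ⟨1, by omega⟩
  have hij : i ≠ j := by simp [i, j, Fin.ext_iff]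
  set d : Fin n → F := fun k => if k = i then -1 else 1
  set e : Fin n → F := fun k => if k = j then 1 else 0
  have hdd : (Matrix.diagonal d) * Matrix.diagonal d = 1 := by
    rw [Matrix.diagonal_mul_diagonal, ← Matrix.diagonal_one]
    congr 1
    funext k
    by_cases h : k = i <;> simp [d, h]
  have hde : Matrix.diagonal d * Matrix.diagonal e = Matrix.diagonal e := by
    rw [Matrix.diagonal_mul_diagonal]
    congr 1
    funext k
    by_cases h : k = j
    · subst h; simp [d, e, hij.symm]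
    · simp [d, e, h]
  have hed : Matrix.diagonal e * Matrix.diagonal d = Matrix.diagonal e := by
    rw [Matrix.diagonal_mul_diagonal]
    simp_rw [mul_comm (e _)]
    rwa [Matrix.diagonal_mul_diagonal] at hde
  have hy : Matrix.fromBlocks (Matrix.diagonal d) 0 0 (Matrix.diagonal d) ∈ Matrix.symplecticGroup (Fin n) F := by
    rw [SymplecticGroup.mem_iff, Matrix.J, Matrix.fromBlocks_transpose, Matrix.fromBlocks_multiply,
      Matrix.fromBlocks_multiply]
    simp only [Matrix.diagonal_transpose, Matrix.transpose_zero, mul_zero, zero_mul, add_zero, zero_add, mul_one,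
      mul_neg, neg_mul, neg_zero, hdd]
  have hu : Matrix.fromBlocks 1 (Matrix.diagonal e) 0 1 ∈ Matrix.symplecticGroup (Fin n) F := by
    rw [SymplecticGroup.mem_iff]
    simp [Matrix.J, Matrix.fromBlocks_transpose, Matrix.fromBlocks_multiply]
  let y : Sp := ⟨_, hy⟩
  let u : Sp := ⟨_, hu⟩
  have hc : Commute y u := by
    refine Subtype.ext ?_
    show Matrix.fromBlocks _ _ _ _ * Matrix.fromBlocks _ _ _ _ = Matrix.fromBlocks _ _ _ _ * Matrix.fromBlocks _ _ _ _
    simp only [Matrix.fromBlocks_multiply, mul_zero, zero_mul, add_zero, zero_add, mul_one, one_mul, hde, hed]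
  have hy2 : y ^ 2 = 1 := by
    refine Subtype.ext ?_
    rw [pow_two]
    show Matrix.fromBlocks _ _ _ _ * Matrix.fromBlocks _ _ _ _ = (1 : Matrix _ _ F)
    simp only [Matrix.fromBlocks_multiply, mul_zero, zero_mul, add_zero, zero_add, hdd, Matrix.fromBlocks_one]
  have hupow : ∀ k : ℕ, (u ^ k).1 = Matrix.fromBlocks 1 ((k : F) • Matrix.diagonal e) 0 1 := by
    intro k
    induction k with
    | zero => simp [Matrix.fromBlocks_one]
    | succ k ih =>
      rw [pow_succ, Submonoid.coe_mul, ih]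
      show _ * Matrix.fromBlocks _ _ _ _ = _
      simp [Matrix.fromBlocks_multiply, add_smul, add_comm]
  have hup : u ^ p = 1 := Subtype.ext (by
    rw [hupow, CharP.cast_eq_zero, zero_smul, Matrix.fromBlocks_one]; rfl)
  have hn1 : (-1 : F) ≠ 1 := fun h => h2 (by linear_combination -h)
  refine ⟨QuotientGroup.mk (y * u), orderOf_mk_eq _ Nat.prime_two hp ?_ ?_ ?_⟩
  · rw [hc.mul_pow, pow_mul, hy2, one_pow, mul_comm 2 p, pow_mul, hup, one_pow, one_mul]
    exact one_mem _
  · rw [hc.mul_pow, hy2, one_mul, mem_center_iff' (by omega), hupow]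
    rintro (h | h)
    · have := congrFun (congrFun h (Sum.inl j)) (Sum.inr j)
      simp [e] at this
      exact h2 this
    · have := congrFun (congrFun h (Sum.inl j)) (Sum.inl j)
      simp at this
      exact hn1 this.symm
  · rw [hc.mul_pow, hup, mul_one, show y ^ p = y by
      obtain ⟨c, hc⟩ := hp.odd_of_ne_two hp2
      rw [hc, pow_succ, pow_mul, hy2, one_pow, one_mul], mem_center_iff' (by omega)]
    rintro (h | h)
    · have := congrFun (congrFun h (Sum.inl i)) (Sum.inl i)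
      simp [y, d] at this
      exact hn1 this
    · have := congrFun (congrFun h (Sum.inl j)) (Sum.inl j)
      simp [y, d, hij.symm] at this
      exact hn1 this.symm

theorem neg_one_ne_one' (p : ℕ) [Fact p.Prime] [CharP F p] (hp2 : p ≠ 2) : (-1 : F) ≠ 1 := fun h =>
  hp2 ((Nat.prime_dvd_prime_iff_eq (Fact.out : p.Prime) Nat.prime_two).1
    ((CharP.cast_eq_zero_iff F p 2).1 (by push_cast; linear_combination -h)))

theorem coprime_four_mul (p s : ℕ) [Fact p.Prime] [Fact s.Prime] (hp2 : p ≠ 2) (hsp : s ≠ p) :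
    p.Coprime (4 * s) :=
  Nat.Coprime.mul_right (by
    have h := ((Nat.coprime_primes (Fact.out : p.Prime) Nat.prime_two).2 hp2).pow_right 2
    exact h)
    ((Nat.coprime_primes Fact.out Fact.out).2 hsp.symm)

/-- Necessity. -/
theorem two_s_nec (p s : ℕ) [Fact p.Prime] [CharP F p] [Fact s.Prime] (hs2 : s ≠ 2) (hsp : s ≠ p) (hp2 : p ≠ 2)
    (hn : 1 ≤ n) {l η : ℕ} (hl : l = orderOf ((Fintype.card F : ℕ) : ZMod s))
    (hη : (Odd l ∧ η = l) ∨ (Even l ∧ 2 * η = l)) (h : 2 * s ∈ Set.range (orderOf : Cfsg.PSp n F → ℕ)) :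
    η ≤ n ∧ (η = n →
      (((Fintype.card F : ℕ) : ZMod 4) ^ n = 1 ↔ ((Fintype.card F : ℕ) : ZMod s) ^ n = 1)) := by
  classical
  obtain ⟨g, hg⟩ := h
  obtain ⟨g, rfl⟩ := QuotientGroup.mk_surjective g
  have hs := (Fact.out : s.Prime)
  have hp := (Fact.out : p.Prime)
  have hs3 : 3 ≤ s := lt_of_le_of_ne hs.two_le (Ne.symm hs2)
  have hcop := coprime_four_mul p s hp2 hsp
  have hNF : ((4 * s : ℕ) : F) ≠ 0 := fun h => by
    rw [CharP.cast_eq_zero_iff F p] at h
    exact hp.ne_one (hcop.eq_one_of_dvd h)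
  set Z := Subgroup.center Sp
  have hnot : ∀ c, ¬ 2 * s ∣ c → g ^ c ∉ Z := fun c hc h => hc (by
    rw [← hg, orderOf_dvd_iff_pow_eq_one, ← QuotientGroup.mk_pow, QuotientGroup.eq_one_iff]; exact h)
  have hmem : g ^ (2 * s) ∈ Z := by
    rw [← QuotientGroup.eq_one_iff, QuotientGroup.mk_pow, ← hg, pow_orderOf_eq_one]
  set M : Matrix (Fin n ⊕ Fin n) (Fin n ⊕ Fin n) F := g.1 with hM
  have hpw : ∀ c, (g ^ c).1 = M ^ c := fun c => SubmonoidClass.coe_pow g c
  have hM4 : M ^ (4 * s) = 1 := by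
    rw [show 4 * s = 2 * s * 2 by ring, pow_mul, ← hpw]
    rcases (mem_center_iff' hn).1 hmem with h | h <;> simp [h]
  obtain ⟨z, hz, hsz⟩ : ∃ z : Ω, aeval z M.charpoly = 0 ∧ s ∣ orderOf z := by
    by_contra! hno
    have h1 : M ^ 4 = 1 := pow_eq_one_of_roots hNF hM4 fun z hz => by
      have h1 : orderOf z ∣ 4 * s := orderOf_dvd_of_pow_eq_one (root_pow_eq_one hM4 hz)
      exact orderOf_dvd_iff_pow_eq_one.1 (((hs.coprime_iff_not_dvd.2 (hno z hz)).symm).dvd_of_dvd_mul_right h1)
    refine hnot 4 (fun hd => ?_) ((mem_center_iff' hn).2 (Or.inl (by rw [hpw, h1])))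
    have := Nat.le_of_dvd (by omega) hd
    omega
  obtain ⟨hd, hpal⟩ := CfsgLib.SemisimpleClasses.Symp.charpoly_palin g
  have hinv : InvClosed M.charpoly := invClosed_of_reverse (reverse_eq_of_palin hd hpal)
  have hzdvd : orderOf z ∣ 4 * s := orderOf_dvd_of_pow_eq_one (root_pow_eq_one hM4 hz)
  have hzc : p.Coprime (orderOf z) := Nat.Coprime.coprime_dvd_right hzdvd hcop
  have hne0 := ((Matrix.charpoly_monic M).map (algebraMap F Ω)).ne_zero
  have hsub : ∀ T : Finset Ω, (∀ y ∈ T, aeval y M.charpoly = 0) →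
      T ⊆ (M.charpoly.map (algebraMap F Ω)).roots.toFinset := fun T hT y hy => by
    rw [Multiset.mem_toFinset, mem_roots hne0, IsRoot, eval_map, ← aeval_def]
    exact hT y hy
  have hdeg : (M.charpoly.map (algebraMap F Ω)).roots.toFinset.card ≤ 2 * n := by
    refine (Multiset.toFinset_card_le _).trans ((card_roots' _).trans ?_)
    rw [natDegree_map, hM, hd]
  obtain ⟨T, hT, hroot, -⟩ := orbit_bound p s hs2 hinv hl hη hzc hsz rfl hz
  have hle := (Finset.card_le_card (hsub T fun y hy => (hroot y hy).1)).trans hdeg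
  refine ⟨by omega, fun he => ?_⟩
  have hTeq := Finset.eq_of_subset_of_card_le (hsub T fun y hy => (hroot y hy).1) (by omega)
  have hall : ∀ y : Ω, aeval y M.charpoly = 0 → orderOf y = orderOf z := fun y hy => (hroot y (by
    rw [hTeq, Multiset.mem_toFinset, mem_roots hne0, IsRoot, eval_map, ← aeval_def]; exact hy)).2
  have hsep := sep_of_pow_eq_one hNF hM4
  have ho : orderOf z = 4 * s := by
    obtain ⟨a, ha⟩ := hsz
    rw [ha, mul_comm 4 s, Nat.mul_dvd_mul_iff_left hs.pos, show (4 : ℕ) = 2 ^ 2 by rfl,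
      Nat.dvd_prime_pow Nat.prime_two] at hzdvd
    obtain ⟨b, hb, rfl⟩ := hzdvd
    have hns : ¬ 2 * s ∣ s := fun hd => by
      have := Nat.le_of_dvd hs.pos hd
      omega
    interval_cases b
    · exfalso
      refine hnot s hns ((mem_center_iff' hn).2 (Or.inl ?_))
      rw [hpw, pow_eq_one_of_roots hNF hM4 fun y hy => ?_]
      exact orderOf_dvd_iff_pow_eq_one.1 (by rw [hall y hy, ha, pow_zero, mul_one])
    · exfalso
      refine hnot s hns ((mem_center_iff' hn).2 (Or.inr ?_))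
      rw [hpw, pow_eq_smul_of_roots hsep hs.pos (-1) fun y hy => ?_, neg_one_smul]
      have hy' := (hall y hy).trans ha
      have h1 : (y ^ s) ^ 2 = 1 := by rw [← pow_mul, ← pow_one 2, ← hy', pow_orderOf_eq_one]
      rw [map_neg, map_one]
      refine (sq_eq_one_iff.1 h1).resolve_left fun h4 => ?_
      have := Nat.le_of_dvd hs.pos (orderOf_dvd_of_pow_eq_one h4)
      omega
    · rw [ha]; ring
  have : NeZero (4 * s) := ⟨by omega⟩
  obtain ⟨u, hu⟩ := exists_unit (F := F) p hcop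
  obtain ⟨T', hT', hroot', -⟩ := card_signedPowers_le hinv u hu ho hz
  have hU : Nat.card (signedPowers u) ≤ 2 * n :=
    hT' ▸ (Finset.card_le_card (hsub T' fun y hy => (hroot' y hy).1)).trans hdeg
  set fs := Units.map (ZMod.castHom (Dvd.intro_left 4 rfl : s ∣ 4 * s) (ZMod s) : ZMod (4 * s) →* ZMod s)
  have hfu : ((fs u : (ZMod s)ˣ) : ZMod s) = (Fintype.card F : ℕ) := by simp [fs, hu]
  have hlow : 2 * η ≤ Nat.card ((signedPowers u).map fs) := by
    rw [map_signedPowers _ u]
    exact two_eta_le hs2 _ (by rw [← orderOf_units, hfu, ← hl]; exact hη)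
  have hcard : Nat.card (signedPowers u) = Nat.card ((signedPowers u).map fs) :=
    le_antisymm (by omega) (Nat.le_of_dvd Nat.card_pos (Subgroup.card_map_dvd _ fs))
  have hinj : Function.Injective (fs.subgroupMap (signedPowers u)) :=
    ((Nat.bijective_iff_surjective_and_card _).2 ⟨fs.subgroupMap_surjective _, hcard⟩).injective
  have hinj' : ∀ v w, v ∈ signedPowers u → w ∈ signedPowers u → fs v = fs w → v = w := fun v w hv hw h =>
    congrArg Subtype.val (hinj (a₁ := ⟨v, hv⟩) (a₂ := ⟨w, hw⟩) (Subtype.ext h))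
  have huU : u ∈ signedPowers u := Subgroup.subset_closure (by simp)
  have hnU : (-1 : (ZMod (4 * s))ˣ) ∈ signedPowers u := Subgroup.subset_closure (by simp)
  set f4 := Units.map (ZMod.castHom (Dvd.intro s rfl : 4 ∣ 4 * s) (ZMod 4) : ZMod (4 * s) →* ZMod 4)
  have h4 : ∀ v, u ^ n = v → ((f4 v : (ZMod 4)ˣ) : ZMod 4) = ((Fintype.card F : ℕ) : ZMod 4) ^ n := fun v hv => by
    rw [← hv, map_pow, Units.val_pow_eq_pow_val]
    simp [f4, hu]
  have hsq : ((((Fintype.card F : ℕ) : ZMod s)) ^ n) ^ 2 = 1 := by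
    rw [← pow_mul, ← orderOf_dvd_iff_pow_eq_one, ← hl, mul_comm, ← he]
    rcases hη with ⟨-, e⟩ | ⟨-, e⟩ <;> rw [e]
    exact Dvd.intro_left 2 rfl
  rcases sq_eq_one_iff.1 hsq with h1 | h1
  · have h2 := h4 1 (hinj' _ _ (pow_mem huU n) (one_mem _) (Units.ext (by
      rw [map_pow, map_one, Units.val_pow_eq_pow_val, hfu, h1, Units.val_one])))
    rw [map_one, Units.val_one] at h2
    exact iff_of_true h2.symm h1
  · have h2 := h4 (-1) (hinj' _ _ (pow_mem huU n) hnU (Units.ext (by
      rw [map_pow, Units.val_pow_eq_pow_val, hfu, h1]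
      simp [fs])))
    simp [f4] at h2
    refine iff_of_false (by rw [← h2]; decide) ?_
    rw [h1]
    exact neg_one_ne_one_of_prime hs2

theorem crt_four {s a : ℕ} (hs : s.Prime) (hs2 : s ≠ 2) (h4 : 4 ∣ a) (hsd : s ∣ a) : 4 * s ∣ a :=
  (((Nat.coprime_primes Nat.prime_two hs).2 (Ne.symm hs2)).pow_left 2).mul_dvd_of_dvd_of_dvd h4 hsd

/-- Existence. -/
theorem two_s_exists (p s : ℕ) [Fact p.Prime] [CharP F p] [Fact s.Prime] (hs2 : s ≠ 2) (hsp : s ≠ p) (hp2 : p ≠ 2)
    {l η : ℕ} (hl : l = orderOf ((Fintype.card F : ℕ) : ZMod s))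
    (hη : (Odd l ∧ η = l) ∨ (Even l ∧ 2 * η = l))
    (hc : η < n ∨ (η = n ∧
      (((Fintype.card F : ℕ) : ZMod 4) ^ n = 1 ↔ ((Fintype.card F : ℕ) : ZMod s) ^ n = 1))) :
    2 * s ∈ Set.range (orderOf : Cfsg.PSp n F → ℕ) := by
  classical
  have hs := (Fact.out : s.Prime)
  have hp := (Fact.out : p.Prime)
  have hs3 : 3 ≤ s := lt_of_le_of_ne hs.two_le (Ne.symm hs2)
  have hps : p.Coprime s := (Nat.coprime_primes hp hs).2 hsp.symm
  have h0 : 0 < η := by
    obtain ⟨u, hu⟩ := exists_unit (F := F) p hps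
    have : NeZero s := ⟨hs.ne_zero⟩
    have : 0 < l := by rw [hl, ← hu, orderOf_units]; exact orderOf_pos u
    rcases hη with ⟨-, e⟩ | ⟨-, e⟩ <;> omega
  have hn : 1 ≤ n := by rcases hc with h | ⟨h, -⟩ <;> omega
  have hm1 : (-1 : F) ≠ 1 := neg_one_ne_one' p hp2
  have hm1' : (-1 : Ω) ≠ 1 := fun h => hm1 ((algebraMap F Ω).injective (by rw [map_neg, map_one]; exact h))
  set q := Fintype.card F
  rcases hc with hlt | ⟨he, hcong⟩
  · have hs' : (orderOf (q : ZMod s) = 2 * η ∧ (q : ZMod s) ^ η = -1) ∨ orderOf (q : ZMod s) = η := by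
      rcases hη with ⟨-, e⟩ | ⟨-, e⟩
      · exact Or.inr (by omega)
      · exact Or.inl ⟨by omega, pow_eq_neg_one (by omega) h0⟩
    obtain ⟨P, hPm, hPd, hPr, hPo, x, hx, hxo⟩ := exists_palin (F := F) p hps (by omega) hs'
    set χ : F[X] := P * ((X + 1) ^ 2) * ((X - C 1) ^ 2) ^ (n - η - 1) with hχ
    have hX1 : ((X + 1 : F[X]) ^ 2).Monic := by
      rw [← C_1]; exact (monic_X_add_C 1).pow 2
    have hX1d : ((X + 1 : F[X]) ^ 2).natDegree = 2 := by rw [← C_1, natDegree_pow, natDegree_X_add_C]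
    have hX1r : ((X + 1 : F[X]) ^ 2).reverse = (X + 1) ^ 2 := reverse_eq_of_palin (N := 2) hX1d fun k hk => by
      rw [show ((X + 1) ^ 2 : F[X]) = X ^ 2 + 2 * X + 1 by ring]
      interval_cases k <;> simp [coeff_one, coeff_X]
    have hf : (((X - C 1) ^ 2) ^ (n - η - 1) : F[X]).Monic := ((monic_X_sub_C 1).pow 2).pow _
    have hroots : ∀ z : Ω, aeval z χ = 0 → z ^ (2 * s) = 1 := fun z hz => by
      rw [hχ, map_mul, map_mul, mul_eq_zero, mul_eq_zero] at hz
      rcases hz with (hz | hz) | hz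
      · rw [mul_comm, pow_mul, ← hPo z hz, pow_orderOf_eq_one, one_pow]
      · simp only [map_pow, map_add, aeval_X, map_one] at hz
        rw [eq_neg_of_add_eq_zero_left (eq_zero_of_pow_eq_zero hz), pow_mul, neg_one_sq, one_pow]
      · simp only [map_pow, map_sub, aeval_X, map_one] at hz
        rw [sub_eq_zero.1 (eq_zero_of_pow_eq_zero (eq_zero_of_pow_eq_zero hz)), one_pow]
    obtain ⟨h, hh, hχh, hord⟩ := exists_semisimple p (n := n) (χ := χ) ((hPm.mul hX1).mul hf)
      (by rw [(hPm.mul hX1).natDegree_mul hf, hPm.natDegree_mul hX1, hPd, hX1d, natDegree_pow, natDegree_pow,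
        natDegree_X_sub_C]; omega)
      (by rw [reverse_mul_of_domain, reverse_mul_of_domain, hPr, hX1r, reverse_filler]) hroots
    have hs_dvd : s ∣ orderOf h := hxo ▸ hord x (by rw [hχ, map_mul, map_mul, hx, zero_mul, zero_mul])
    have h2_dvd : 2 ∣ orderOf h := by
      have := hord (-1) (by simp [hχ])
      rwa [orderOf_eq_prime (p := 2) neg_one_sq hm1'] at this
    have ho : orderOf h = 2 * s := Nat.dvd_antisymm (orderOf_dvd_of_pow_eq_one hh)
      (((Nat.coprime_primes Nat.prime_two hs).2 (Ne.symm hs2)).mul_dvd_of_dvd_of_dvd h2_dvd hs_dvd)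
    refine ⟨QuotientGroup.mk h, orderOf_mk_eq _ Nat.prime_two hs (by rw [hh]; exact one_mem _)
      (fun hm => ?_) (fun hm => ?_)⟩
    · have h4 : orderOf h ∣ 4 := orderOf_dvd_of_pow_eq_one (Subtype.ext (by
        rw [show (4 : ℕ) = 2 * 2 by rfl, pow_mul, SubmonoidClass.coe_pow]
        rcases (mem_center_iff' hn).1 hm with h' | h' <;> simp [h']))
      have := Nat.le_of_dvd (by norm_num) h4
      omega
    · rcases (mem_center_iff' hn).1 hm with h' | h'
      · have := Nat.le_of_dvd hs.pos (orderOf_dvd_of_pow_eq_one (Subtype.ext h' : h ^ s = 1))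
        omega
      · have h1 := root_pow_eq (M := h.1) (c := -1) (N := s) (x := x)
          (by rw [← SubmonoidClass.coe_pow, h', map_neg, map_one])
          (by rw [hχh, hχ, map_mul, map_mul, hx, zero_mul, zero_mul])
        rw [← hxo, pow_orderOf_eq_one, map_neg, map_one] at h1
        exact hm1' h1.symm
  · have hq4 : (q : ZMod 4) ^ n = 1 ∨ (q : ZMod 4) ^ n = -1 := by
      have hodd : Odd q := by
        obtain ⟨f, -, hqf⟩ := FiniteField.card F p
        rw [show q = p ^ (f : ℕ) from hqf]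
        exact (hp.odd_of_ne_two hp2).pow
      obtain ⟨c, hc⟩ := hodd.pow (n := n)
      rw [← Nat.cast_pow, hc]
      rcases Nat.even_or_odd c with ⟨d, hd⟩ | ⟨d, hd⟩ <;> subst hd
      · left
        rw [← ZMod.natCast_mod, show (2 * (d + d) + 1) % 4 = 1 by omega, Nat.cast_one]
      · right
        rw [← ZMod.natCast_mod, show (2 * (2 * d + 1) + 1) % 4 = 3 by omega]
        decide
    have hl2 : l ∣ 2 * n := by
      rw [← he]
      rcases hη with ⟨-, e⟩ | ⟨-, e⟩ <;> rw [e]
      exact Dvd.intro_left 2 rfl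
    have hsq : ((q : ZMod s) ^ n) ^ 2 = 1 := by
      rw [← pow_mul, mul_comm, ← orderOf_dvd_iff_pow_eq_one, ← hl]; exact hl2
    have hldvd : l ∣ orderOf (q : ZMod (4 * s)) := by
      rw [hl]
      refine orderOf_dvd_of_pow_eq_one ?_
      have := congrArg (ZMod.castHom (Dvd.intro_left 4 rfl : s ∣ 4 * s) (ZMod s))
        (pow_orderOf_eq_one (q : ZMod (4 * s)))
      rw [map_pow, map_natCast, map_one] at this
      exact this
    have hd : (orderOf (q : ZMod (4 * s)) = 2 * n ∧ (q : ZMod (4 * s)) ^ n = -1) ∨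
        orderOf (q : ZMod (4 * s)) = n := by
      rcases sq_eq_one_iff.1 hsq with h1 | h1
      · right
        have h4 := hcong.2 h1
        have hn' : (q : ZMod (4 * s)) ^ n = 1 := by
          have hd : 4 * s ∣ q ^ n - 1 := crt_four hs hs2
            (by rw [← ZMod.natCast_eq_zero_iff, Nat.cast_sub (Nat.one_le_pow _ _ Fintype.card_pos), Nat.cast_pow,
              h4, Nat.cast_one, sub_self])
            (by rw [← ZMod.natCast_eq_zero_iff, Nat.cast_sub (Nat.one_le_pow _ _ Fintype.card_pos), Nat.cast_pow,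
              h1, Nat.cast_one, sub_self])
          rw [← ZMod.natCast_eq_zero_iff, Nat.cast_sub (Nat.one_le_pow _ _ Fintype.card_pos), Nat.cast_pow,
            Nat.cast_one, sub_eq_zero] at hd
          exact hd
        have hln : l ∣ n := by rw [hl, orderOf_dvd_iff_pow_eq_one]; exact h1
        have hle := Nat.le_of_dvd (by omega) hln
        refine Nat.dvd_antisymm (orderOf_dvd_of_pow_eq_one hn') ?_
        rcases hη with ⟨-, e⟩ | ⟨-, e⟩
        · rwa [show n = l by omega]
        · omega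
      · left
        have h4 : (q : ZMod 4) ^ n = -1 := hq4.resolve_left fun h => by
          have := hcong.1 h
          rw [h1] at this
          exact neg_one_ne_one_of_prime hs2 this
        have hn' : (q : ZMod (4 * s)) ^ n = -1 := by
          have hd : 4 * s ∣ q ^ n + 1 := crt_four hs hs2
            (by rw [← ZMod.natCast_eq_zero_iff, Nat.cast_succ, Nat.cast_pow, h4, neg_add_cancel])
            (by rw [← ZMod.natCast_eq_zero_iff, Nat.cast_succ, Nat.cast_pow, h1, neg_add_cancel])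
          rw [← ZMod.natCast_eq_zero_iff, Nat.cast_succ, Nat.cast_pow] at hd
          exact eq_neg_of_add_eq_zero_left hd
        refine ⟨Nat.dvd_antisymm (orderOf_dvd_of_pow_eq_one (by rw [mul_comm 2 n, pow_mul, hn', neg_one_sq])) ?_, hn'⟩
        rcases hη with ⟨-, e⟩ | ⟨-, e⟩
        · exfalso
          have h3 : (q : ZMod s) ^ n = 1 := by rw [show n = l by omega, hl, pow_orderOf_eq_one]
          rw [h1] at h3
          exact neg_one_ne_one_of_prime hs2 h3
        · rwa [show 2 * n = l by omega]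
    obtain ⟨P, hPm, hPd, hPr, hPo, x, hx, hxo⟩ := exists_palin (F := F) p (coprime_four_mul p s hp2 hsp) (by omega) hd
    obtain ⟨h, hh, hχh, hord⟩ := exists_semisimple p (n := n) hPm hPd hPr (N := 4 * s)
      fun z hz => hPo z hz ▸ pow_orderOf_eq_one z
    set M : Matrix (Fin n ⊕ Fin n) (Fin n ⊕ Fin n) F := h.1 with hM
    have hM4 : M ^ (4 * s) = 1 := by rw [hM, ← SubmonoidClass.coe_pow, hh]; rfl
    have hNF : ((4 * s : ℕ) : F) ≠ 0 := fun h0 => by
      rw [CharP.cast_eq_zero_iff F p] at h0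
      exact hp.ne_one ((coprime_four_mul p s hp2 hsp).eq_one_of_dvd h0)
    have h2s : M ^ (2 * s) = (-1 : F) • 1 := pow_eq_smul_of_roots (sep_of_pow_eq_one hNF hM4) (by omega) (-1)
      fun y hy => by
        have hy' := hPo y (hχh ▸ hy)
        have h1 : (y ^ (2 * s)) ^ 2 = 1 := by
          rw [← pow_mul, show 2 * s * 2 = 4 * s by ring, ← hy', pow_orderOf_eq_one]
        rw [map_neg, map_one]
        refine (sq_eq_one_iff.1 h1).resolve_left fun h4 => ?_
        have := Nat.le_of_dvd (by omega) (orderOf_dvd_of_pow_eq_one h4)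
        omega
    rw [neg_one_smul] at h2s
    have hne : (1 : Matrix (Fin n ⊕ Fin n) (Fin n ⊕ Fin n) F) ≠ -1 := fun h0 => hm1 (by
      have := congrFun (congrFun h0 (Sum.inl ⟨0, hn⟩)) (Sum.inl ⟨0, hn⟩)
      simpa using this.symm)
    refine ⟨QuotientGroup.mk h, orderOf_mk_eq _ Nat.prime_two hs
      ((mem_center_iff' hn).2 (Or.inr (by rw [SubmonoidClass.coe_pow, ← hM, h2s]))) (fun hm => ?_) (fun hm => ?_)⟩
    · have h4 : M ^ 4 = 1 := by
        rw [show (4 : ℕ) = 2 * 2 by rfl, pow_mul, hM, ← SubmonoidClass.coe_pow]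
        rcases (mem_center_iff' hn).1 hm with h' | h' <;> simp [h']
      have := Nat.le_of_dvd (by norm_num) (orderOf_dvd_of_pow_eq_one (root_pow_eq_one h4 (hχh.symm ▸ hx)))
      omega
    · refine hne (Eq.trans ?_ h2s)
      rw [mul_comm, pow_mul, hM, ← SubmonoidClass.coe_pow]
      rcases (mem_center_iff' hn).1 hm with h' | h' <;> simp [h']

end CfsgLib.Singer.Symp
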