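import Cfsg.Agent.Lib.Singer.OrthExist
import Cfsg.Agent.Lib.Singer.PrimeGraphSympTwo
import Cfsg.Agent.Lib.ClassicalForms.Ortho.POmegaCard

/-!
`PΩ(2n+1, q)` and `PSp(2n, q)`, `q` odd, have the same prime graph.
-/

set_option autoImplicit false
set_option linter.unusedSectionVars false

namespace CfsgLib.Singer.Graph

open CfsgLib.ClassicalForms CfsgLib.Singer

universe u

variable {F : Type u} [Field F] [Fintype F]

/-- `PΩ(2n+1, q)` has the element orders of `Ω(2n+1, q)`. -/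
theorem mem_range_pOmega_iff (h2 : (2 : F) ≠ 0) {n : ℕ} (hn : 2 ≤ n) (m : ℕ) :
    m ∈ Set.range (orderOf : Cfsg.POmega F (Cfsg.quadFormOdd n F) → ℕ) ↔
      ∃ x ∈ Cfsg.Omega F (⇑(qOdd n F)), orderOf x = m := by
  classical
  have hι : 5 ≤ Fintype.card (Unit ⊕ (Fin n ⊕ Fin n)) := by simp; omega
  have hQ := nondeg_qOdd (F := F) h2 n
  have hg := isGen_qOdd (F := F) h2 n
  have hc := commutator_eq_siegelGroup hQ (by rw [finrank_qOdd]; omega) hg
  let e := pOmegaEquiv (qOdd n F) (qOdd_apply n) hc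
  let e' : Cfsg.Omega F (⇑(qOdd n F)) ≃* siegelGroup (qOdd n F) :=
    (commutatorCongr (isoMat (qOdd n F) fun _ => rfl)).trans (MulEquiv.subgroupCongr hc)
  have hbot : Subgroup.center (siegelGroup (qOdd n F)) = ⊥ := by
    apply Subgroup.eq_bot_of_card_eq
    rw [card_center_siegelGroup h2 hQ hι, if_neg]
    rw [negI_mem_iff h2 hQ hι hg]
    rintro ⟨h, -⟩
    simp [parity_simps] at h
  constructor
  · rintro ⟨g, rfl⟩
    obtain ⟨y, hy⟩ := QuotientGroup.mk_surjective (e g)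
    refine ⟨(e'.symm y : Cfsg.isometryGroup F (⇑(qOdd n F))), (e'.symm y).2, ?_⟩
    rw [Subgroup.orderOf_coe, MulEquiv.orderOf_eq, ← MulEquiv.orderOf_eq e g, ← hy]
    refine orderOf_eq_orderOf_iff.2 fun k => ?_
    rw [← QuotientGroup.mk_pow, QuotientGroup.eq_one_iff, hbot, Subgroup.mem_bot]
  · rintro ⟨x, hx, rfl⟩
    refine ⟨e.symm (QuotientGroup.mk (e' ⟨x, hx⟩)), ?_⟩
    rw [MulEquiv.orderOf_eq, ← show orderOf (⟨x, hx⟩ : Cfsg.Omega F (⇑(qOdd n F))) = orderOf x from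
      Subgroup.orderOf_mk x hx, ← MulEquiv.orderOf_eq e' ⟨x, hx⟩]
    refine orderOf_eq_orderOf_iff.2 fun k => ?_
    rw [← QuotientGroup.mk_pow, QuotientGroup.eq_one_iff, hbot, Subgroup.mem_bot]

theorem coprime_center (p : ℕ) [Fact p.Prime] [CharP F p] {n r : ℕ} (hn : 1 ≤ n) (hr : r.Prime) (hr2 : r ≠ 2) :
    Nat.Coprime (Nat.card (Subgroup.center ↥(Matrix.symplecticGroup (Fin n) F))) r := by
  rw [CfsgLib.ClassicalLinear.card_center_sp hn]
  exact (hr.coprime_iff_not_dvd.2 fun h => hr2 ((Nat.prime_dvd_prime_iff_eq hr Nat.prime_two).1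
    (h.trans (Nat.gcd_dvd_left _ _)))).symm

theorem exists_eta (l : ℕ) : ∃ η, (Odd l ∧ η = l) ∨ (Even l ∧ 2 * η = l) := by
  rcases Nat.even_or_odd l with ⟨c, hc⟩ | h
  · exact ⟨c, Or.inr ⟨⟨c, hc⟩, by omega⟩⟩
  · exact ⟨l, Or.inl ⟨h, rfl⟩⟩

section Cases

variable (p : ℕ) [Fact p.Prime] [CharP F p]

theorem case_odd (hp2 : p ≠ 2) (h2 : (2 : F) ≠ 0) {n r s : ℕ} [Fact r.Prime] [Fact s.Prime] (hn : 2 ≤ n)
    (hr2 : r ≠ 2) (hs2 : s ≠ 2) (hrp : r ≠ p) (hsp : s ≠ p) (hrs : r ≠ s) :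
    (r * s ∈ Set.range (orderOf : Cfsg.POmega F (Cfsg.quadFormOdd n F) → ℕ)) ↔
      (r * s ∈ Set.range (orderOf : Cfsg.PSp n F → ℕ)) := by
  obtain ⟨ηk, hηk⟩ := exists_eta (orderOf ((Fintype.card F : ℕ) : ZMod r))
  obtain ⟨ηl, hηl⟩ := exists_eta (orderOf ((Fintype.card F : ℕ) : ZMod s))
  rw [mem_range_pOmega_iff h2 hn, CfsgLib.SympPrimeAdj.mem_range_orderOf_quotient_iff _
    (Nat.Coprime.mul_right (coprime_center p (by omega) Fact.out hr2) (coprime_center p (by omega) Fact.out hs2))]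
  rcases le_total ηk ηl with hkl | hkl
  · rw [Orth.odd_adjacent_iff p r s hr2 hs2 hrp hsp hrs h2 rfl rfl hηk hηl hkl,
      Symp.sp_adjacent_iff p r s hr2 hs2 hrp hsp hrs rfl rfl hηk hηl hkl]
  · rw [mul_comm r s, Orth.odd_adjacent_iff p s r hs2 hr2 hsp hrp hrs.symm h2 rfl rfl hηl hηk hkl,
      Symp.sp_adjacent_iff p s r hs2 hr2 hsp hrp hrs.symm rfl rfl hηl hηk hkl]

theorem case_p (hp2 : p ≠ 2) (h2 : (2 : F) ≠ 0) {n s : ℕ} [Fact s.Prime] (hn : 2 ≤ n) (hs2 : s ≠ 2) (hsp : s ≠ p) :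
    (s * p ∈ Set.range (orderOf : Cfsg.POmega F (Cfsg.quadFormOdd n F) → ℕ)) ↔
      (s * p ∈ Set.range (orderOf : Cfsg.PSp n F → ℕ)) := by
  have hs := (Fact.out : s.Prime)
  obtain ⟨η, hη⟩ := exists_eta (orderOf ((Fintype.card F : ℕ) : ZMod s))
  obtain ⟨m, rfl⟩ : ∃ m, n = m + 1 := ⟨n - 1, by omega⟩
  have hcop : Nat.Coprime (Nat.card (Subgroup.center ↥(Matrix.symplecticGroup (Fin (m + 1)) F))) (s * p) :=
    Nat.Coprime.mul_right (coprime_center p (by omega) hs hs2) (coprime_center p (by omega) Fact.out hp2)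
  rw [mem_range_pOmega_iff h2 hn, CfsgLib.SympPrimeAdj.mem_range_orderOf_quotient_iff _ hcop]
  have : NeZero s := ⟨hs.ne_zero⟩
  have h0 : 0 < η := Orth.eta_pos (F := F) p ((Nat.coprime_primes Fact.out hs).2 hsp.symm) rfl hη
  constructor
  · rintro ⟨g, hgO, hg⟩
    have hlt := Orth.eta_lt_of_orderOf p s hs2 hsp h2 (by omega) rfl hη g hgO hg
    exact CfsgLib.SympPrimeAdj.mem_range_of_le p s hs hsp h0 (by omega) (Orth.dvd_two_mul hη)
  · intro h
    by_cases hlt : η < m + 1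
    · exact Orth.p_exists p s hp2 hs2 hsp h2 rfl hη hlt
    · exact absurd h (CfsgLib.SympPrimeAdj.not_mem_range p s hs hs2 hsp (by omega) hη (by omega))

theorem case_two (hp2 : p ≠ 2) (h2 : (2 : F) ≠ 0) {n s : ℕ} [Fact s.Prime] (hn : 2 ≤ n) (hs2 : s ≠ 2) (hsp : s ≠ p) :
    (2 * s ∈ Set.range (orderOf : Cfsg.POmega F (Cfsg.quadFormOdd n F) → ℕ)) ↔
      (2 * s ∈ Set.range (orderOf : Cfsg.PSp n F → ℕ)) := by
  obtain ⟨η, hη⟩ := exists_eta (orderOf ((Fintype.card F : ℕ) : ZMod s))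
  rw [mem_range_pOmega_iff h2 hn]
  constructor
  · rintro ⟨g, hgO, hg⟩
    obtain ⟨hle, hc⟩ := Orth.two_nec p s hs2 hsp hp2 h2 (by omega) rfl hη g hgO hg
    refine Symp.two_s_exists p s hs2 hsp hp2 rfl hη ?_
    rcases hle.lt_or_eq with h | h
    · exact Or.inl h
    · exact Or.inr ⟨h, hc h⟩
  · intro h
    obtain ⟨hle, hc⟩ := Symp.two_s_nec p s hs2 hsp hp2 (by omega) rfl hη h
    rcases hle.lt_or_eq with h | h
    · exact Orth.two_exists_of_lt p s hs2 hsp h2 rfl hη h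
    · exact Orth.two_exists p s hs2 hsp h2 (by omega) rfl hη h (hc h)

theorem case_two_p (hp2 : p ≠ 2) (h2 : (2 : F) ≠ 0) {n : ℕ} (hn : 3 ≤ n) :
    (2 * p ∈ Set.range (orderOf : Cfsg.POmega F (Cfsg.quadFormOdd n F) → ℕ)) ↔
      (2 * p ∈ Set.range (orderOf : Cfsg.PSp n F → ℕ)) :=
  iff_of_true ((mem_range_pOmega_iff h2 (by omega) _).2 (Orth.two_p_exists p hp2 h2 hn))
    (Symp.two_p_mem p hp2 (by omega))

end Cases

/-- The same prime graph. -/
theorem same_prime_graph (hodd : Odd (Fintype.card F)) {n : ℕ} (hn : 3 ≤ n) {r s : ℕ} (hr : r.Prime) (hs : s.Prime)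
    (hrs : r ≠ s) :
    (r * s ∈ Set.range (orderOf : Cfsg.POmega F (Cfsg.quadFormOdd n F) → ℕ)) ↔
      (r * s ∈ Set.range (orderOf : Cfsg.PSp n F → ℕ)) := by
  have h2 : (2 : F) ≠ 0 := CfsgLib.ClassicalForms.two_ne_zero_of_odd (by rwa [Nat.card_eq_fintype_card])
  obtain ⟨p, hcp⟩ := CharP.exists F
  haveI := Fact.mk (CharP.char_is_prime F p)
  have := Fact.mk hr
  have := Fact.mk hs
  have hp2 : p ≠ 2 := fun h => h2 (by subst h; exact_mod_cast CharP.cast_eq_zero F 2)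
  rcases eq_or_ne r 2 with rfl | hr2
  · rcases eq_or_ne s p with rfl | hsp
    · exact case_two_p s hp2 h2 hn
    · exact case_two p hp2 h2 (by omega) (Ne.symm hrs) hsp
  rcases eq_or_ne s 2 with rfl | hs2
  · rw [mul_comm]
    rcases eq_or_ne r p with rfl | hrp
    · exact case_two_p r hp2 h2 hn
    · exact case_two p hp2 h2 (by omega) hr2 hrp
  rcases eq_or_ne r p with rfl | hrp
  · rw [mul_comm]
    exact case_p r hp2 h2 (by omega) hs2 (Ne.symm hrs)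
  rcases eq_or_ne s p with rfl | hsp
  · exact case_p s hp2 h2 (by omega) hr2 hrs
  exact case_odd p hp2 h2 (by omega) hr2 hs2 hrp hsp hrs

end CfsgLib.Singer.Graph
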